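import Cfsg.Agent.GKKL.AltOn

/-!
Transitivity of the alternating group on short tuples.
-/

set_option autoImplicit false

namespace Cfsg.Agent.ShortPres

open Equiv

variable {n : ℕ}

/-- A permutation sending one injective tuple to another. -/
theorem exists_perm_tuple {k : ℕ} (f g : Fin k → Fin n) (hf : Function.Injective f)
    (hg : Function.Injective g) : ∃ σ : Perm (Fin n), ∀ i, σ (f i) = g i := by
  classical
  obtain ⟨σ, hσ⟩ := Equiv.Perm.exists_extending_pair (f := f) (g := g) hf hg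
  exact ⟨σ, hσ⟩

/-- Up to a prescribed odd permutation `τ` the tuples form one orbit. -/
theorem exists_even_or_odd {k : ℕ} (f g : Fin k → Fin n) (hf : Function.Injective f)
    (hg : Function.Injective g) (τ : Perm (Fin n)) (hτ : Perm.sign τ = -1) :
    ∃ σ : alternatingGroup (Fin n),
      (∀ i, σ.1 (f i) = g i) ∨ (∀ i, σ.1 (τ (f i)) = g i) := by
  obtain ⟨σ, hσ⟩ := exists_perm_tuple f g hf hg
  rcases Int.units_eq_one_or (Perm.sign σ) with hs | hs
  · exact ⟨⟨σ, Perm.mem_alternatingGroup.2 hs⟩, Or.inl hσ⟩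
  · refine ⟨⟨σ * τ⁻¹, Perm.mem_alternatingGroup.2 (by rw [map_mul, map_inv, hs, hτ]; rfl)⟩,
      Or.inr fun i => ?_⟩
    simp [hσ]

/-- Orbit of tuples leaving two points free. -/
theorem exists_even {k : ℕ} (f g : Fin k → Fin n) (hf : Function.Injective f)
    (hg : Function.Injective g) (hk : k + 2 ≤ n) :
    ∃ σ : alternatingGroup (Fin n), ∀ i, σ.1 (f i) = g i := by
  classical
  have hc : 1 < (Finset.univ.image f)ᶜ.card := by
    rw [Finset.card_compl, Finset.card_image_of_injective _ hf, Finset.card_univ, Fintype.card_fin,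
      Fintype.card_fin]
    omega
  obtain ⟨a, ha, b, hb, hab⟩ := Finset.one_lt_card.1 hc
  obtain ⟨σ, h | h⟩ := exists_even_or_odd f g hf hg (swap a b) (Perm.sign_swap hab)
  · exact ⟨σ, h⟩
  · refine ⟨σ, fun i => ?_⟩
    rw [← h i, swap_apply_of_ne_of_ne] <;> intro e
    · exact Finset.mem_compl.1 ha (Finset.mem_image.2 ⟨i, Finset.mem_univ _, e⟩)
    · exact Finset.mem_compl.1 hb (Finset.mem_image.2 ⟨i, Finset.mem_univ _, e⟩)

theorem injective_vec2 {i j : Fin n} (h : i ≠ j) : Function.Injective ![i, j] := by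
  intro a b e; fin_cases a <;> fin_cases b <;> simp_all [eq_comm]

theorem injective_vec3 {i j k : Fin n} (h₁ : i ≠ j) (h₂ : i ≠ k) (h₃ : j ≠ k) :
    Function.Injective ![i, j, k] := by
  intro a b e; fin_cases a <;> fin_cases b <;> simp_all [eq_comm]

theorem injective_vec4 {i j k l : Fin n} (h₁ : i ≠ j) (h₂ : i ≠ k) (h₃ : i ≠ l) (h₄ : j ≠ k)
    (h₅ : j ≠ l) (h₆ : k ≠ l) : Function.Injective ![i, j, k, l] := by
  intro a b e; fin_cases a <;> fin_cases b <;> simp_all [eq_comm]

/-- Another point. -/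
theorem exists_other {k : ℕ} (f : Fin k → Fin n) (hk : k < n) : ∃ l, ∀ i, f i ≠ l := by
  by_contra hne
  push Not at hne
  have := Fintype.card_le_of_surjective f hne
  simp only [Fintype.card_fin] at this
  omega

end Cfsg.Agent.ShortPres
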