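import Cfsg.Agent.ShortPres.Tools

/-!
The numbers of generators and relators.
-/

set_option autoImplicit false

namespace Cfsg.Agent.ShortPres

open Equiv Cfsg.Agent.GKKL

variable {F : Type*} [Field F] [Finite F]

/-- The central cyclic subgroup of the special linear group. -/
theorem isCyclic_center (n : ℕ) :
    IsCyclic (Subgroup.center (Matrix.SpecialLinearGroup (Fin n) F)) := by
  haveI : IsCyclic (rootsOfUnity (max (Fintype.card (Fin n)) 1) F) := inferInstance
  exact isCyclic_of_surjective (Matrix.SpecialLinearGroup.center_equiv_rootsOfUnity (n := Fin n) (R := F)).symm.toMonoidHom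
    (MulEquiv.surjective _)

theorem cast_degree {k n n' r : ℕ} (e : n = n')
    (h : ∃ w : Fin k → Matrix.SpecialLinearGroup (Fin n) F, HasPres w r) :
    ∃ w : Fin k → Matrix.SpecialLinearGroup (Fin n') F, HasPres w r := by subst e; exact h

/-- Degree four. -/
theorem sl_four : ∃ w : Fin 3 → Matrix.SpecialLinearGroup (Fin 4) F, HasPres w 17 := by
  obtain ⟨v, hv⟩ := alt_four_four
  obtain ⟨w, hw⟩ := sl_pres (F := F) (m := 0) v hv [] (by simp)
    (fun σ h0 h1 => by rw [stab_four σ h0 h1]; exact Subgroup.one_mem _)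
    [![0, 1, 2, 3], ![1, 0, 2, 3]]
    (fun d hd => by simp at hd; rcases hd with rfl | rfl <;> decide)
    (fun f hf => by
      obtain ⟨σ, h | h⟩ := exists_even_or_odd ![0, 1, 2, 3] f (by decide) hf (swap 0 1)
        (Perm.sign_swap (by decide))
      · exact ⟨![0, 1, 2, 3], by simp, σ, h⟩
      · refine ⟨![1, 0, 2, 3], by simp, σ, fun t => ?_⟩
        rw [← h t]
        fin_cases t <;> rfl)
    [![0, 1, 2], ![1, 0, 2]]
    (fun d hd => by simp at hd; rcases hd with rfl | rfl <;> decide)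
    (fun f hf => by
      obtain ⟨σ, h | h⟩ := exists_even_or_odd ![0, 1, 2] f (by decide) hf (swap 0 1)
        (Perm.sign_swap (by decide))
      · exact ⟨![0, 1, 2], by simp, σ, h⟩
      · refine ⟨![1, 0, 2], by simp, σ, fun t => ?_⟩
        rw [← h t]
        fin_cases t <;> rfl)
    true (by simp)
  exact ⟨w, hw.mono (by simp)⟩

theorem hst_single {m : ℕ} (hm : 1 ≤ m) :
    (∀ d ∈ [(![0, 1, 2] : Fin 3 → Fin (m + 4))], Function.Injective d) ∧
    ∀ f : Fin 3 → Fin (m + 4), Function.Injective f →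
      ∃ d ∈ [(![0, 1, 2] : Fin 3 → Fin (m + 4))], ∃ σ : alternatingGroup (Fin (m + 4)),
        ∀ t, σ.1 (d t) = f t := by
  refine ⟨fun d hd => ?_, fun f hf => ?_⟩
  · rw [List.mem_singleton.1 hd]; exact injective_vec3 pne01 pne02 pne12
  · obtain ⟨σ, h⟩ := exists_even _ f (injective_vec3 pne01 pne02 pne12) hf (by omega)
    exact ⟨_, List.mem_singleton_self _, σ, h⟩

/-- Degree five. -/
theorem sl_five : ∃ w : Fin 3 → Matrix.SpecialLinearGroup (Fin 5) F, HasPres w 18 := by
  obtain ⟨⟨v, -, hv⟩, -⟩ := pres_small 5 le_rfl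
  obtain ⟨sg, hlen, hsg, hsg'⟩ := exists_stab_gens 1
  obtain ⟨w, hw⟩ := sl_pres (F := F) (m := 1) v hv sg hsg hsg'
    [![0, 1, 2, 3], ![1, 0, 2, 3]]
    (fun d hd => by simp at hd; rcases hd with rfl | rfl <;> decide)
    (fun f hf => by
      obtain ⟨σ, h | h⟩ := exists_even_or_odd ![0, 1, 2, 3] f (by decide) hf (swap 0 1)
        (Perm.sign_swap (by decide))
      · exact ⟨![0, 1, 2, 3], by simp, σ, h⟩
      · refine ⟨![1, 0, 2, 3], by simp, σ, fun t => ?_⟩
        rw [← h t]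
        fin_cases t <;> rfl)
    [![0, 1, 2]] (hst_single le_rfl).1 (hst_single le_rfl).2 false (fun _ => le_rfl)
  exact ⟨w, hw.mono (by simp; omega)⟩

/-- Degree at least six. -/
theorem sl_general (n : ℕ) (hn : 6 ≤ n) :
    ∃ k, k ≤ 7 ∧ ∃ w : Fin k → Matrix.SpecialLinearGroup (Fin n) F, ∃ r, r + (7 - k) ≤ 25 ∧ HasPres w r := by
  obtain ⟨m, rfl⟩ : ∃ m, n = m + 4 := ⟨n - 4, by omega⟩
  obtain ⟨sg, hlen, hsg, hsg'⟩ := exists_stab_gens m
  have key : ∀ {l r : ℕ} (v : Fin l → alternatingGroup (Fin (m + 4))), HasPres v r → r + 14 + (6 - l) ≤ 25 →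
      l + 1 ≤ 7 →
      ∃ k, k ≤ 7 ∧ ∃ w : Fin k → Matrix.SpecialLinearGroup (Fin (m + 4)) F, ∃ r, r + (7 - k) ≤ 25 ∧ HasPres w r := by
    intro l r v hv hle hl
    obtain ⟨w, hw⟩ := sl_pres (F := F) v hv sg hsg hsg'
      [![0, 1, 2, 3]]
      (fun d hd => by rw [List.mem_singleton.1 hd]; exact injective_vec4 pne01 pne02 pne03 pne12 pne13 pne23)
      (fun f hf => by
        obtain ⟨σ, h⟩ := exists_even _ f (injective_vec4 pne01 pne02 pne03 pne12 pne13 pne23) hf (by omega)
        exact ⟨_, List.mem_singleton_self _, σ, h⟩)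
      [![0, 1, 2]] (hst_single (by omega)).1 (hst_single (by omega)).2 false (fun _ => by omega)
    refine ⟨l + 1, hl, w, r + 14, by omega, hw.mono ?_⟩
    simp
    omega
  by_cases h9 : m + 4 = 9 ∨ 13 ≤ m + 4
  · obtain ⟨⟨v, -, hv⟩, -⟩ := pres_glue (m + 4) h9
    exact key v hv (by omega) (by omega)
  · obtain ⟨⟨v, -, hv⟩, -⟩ := pres_small (m + 4) (by omega)
    exact key v hv (by omega) (by omega)

/-- Seven generators and twenty-five relators in every degree from four on. -/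
theorem sl_seven (n : ℕ) (hn : 4 ≤ n) :
    ∃ w : Fin 7 → Matrix.SpecialLinearGroup (Fin n) F, HasPres w 25 := by
  rcases Nat.lt_or_ge n 6 with h | h
  · obtain ⟨w, hw⟩ : ∃ w : Fin 3 → Matrix.SpecialLinearGroup (Fin n) F, HasPres w 21 := by
      rcases (show n = 4 ∨ n = 5 by omega) with rfl | rfl
      · obtain ⟨w, hw⟩ := sl_four (F := F); exact ⟨w, hw.mono (by omega)⟩
      · obtain ⟨w, hw⟩ := sl_five (F := F); exact ⟨w, hw.mono (by omega)⟩
    obtain ⟨w', hw'⟩ := hasPres_pad hw 4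
    exact ⟨w', hw'⟩
  · obtain ⟨k, hk, w, r, hr, hw⟩ := sl_general (F := F) n h
    obtain ⟨w', hw'⟩ := hasPres_pad hw (7 - k)
    have e : k + (7 - k) = 7 := by omega
    generalize k + (7 - k) = t at e w' hw'
    subst e
    exact ⟨w', hw'.mono hr⟩

end Cfsg.Agent.ShortPres
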