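import Cfsg.Agent.ShortPres.Pres
import Cfsg.Agent.GKKL.Tiny

/-!
Padding and central quotients of presentations; stabilisers; small alternating groups.
-/

set_option autoImplicit false

namespace Cfsg.Agent.ShortPres

open Equiv Cfsg.Agent.GKKL Cfsg.Agent.CoxeterSym

/-- Superfluous generators cost one relator each. -/
theorem hasPres_pad {H : Type*} [Group H] {k r : ℕ} {v : Fin k → H} (h : HasPres v r) (j : ℕ) :
    ∃ w : Fin (k + j) → H, HasPres w (r + j) := by
  classical
  obtain ⟨rels, hc, e, he⟩ := id h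
  let R : Finset (FreeGroup (Fin (k + j))) :=
    rels.image (FreeGroup.map (Fin.castAdd j)) ∪
      (Finset.univ : Finset (Fin j)).image (fun i => FreeGroup.of (Fin.natAdd k i))
  let w : Fin (k + j) → H := Fin.append v (fun _ => 1)
  have hlift : ∀ x, e (PresentedGroup.mk _ x) = FreeGroup.lift v x := fun x =>
    DFunLike.congr_fun (FreeGroup.ext_hom (e.toMonoidHom.comp (PresentedGroup.mk _))
      (FreeGroup.lift v) fun i => by
        simp only [MonoidHom.comp_apply, FreeGroup.lift_apply_of]
        exact he i) x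
  have hmap : ∀ x, FreeGroup.lift w (FreeGroup.map (Fin.castAdd j) x) = FreeGroup.lift v x := fun x =>
    DFunLike.congr_fun (FreeGroup.ext_hom ((FreeGroup.lift w).comp (FreeGroup.map (Fin.castAdd j)))
      (FreeGroup.lift v) fun i => by simp [w]) x
  let mk := PresentedGroup.mk (↑R : Set (FreeGroup (Fin (k + j))))
  have hrel : ∀ x ∈ (↑rels : Set (FreeGroup (Fin k))),
      FreeGroup.lift (fun i => mk (FreeGroup.of (Fin.castAdd j i))) x = 1 := by
    intro x hx
    rw [show FreeGroup.lift (fun i => mk (FreeGroup.of (Fin.castAdd j i))) x =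
        mk (FreeGroup.map (Fin.castAdd j) x) from
      DFunLike.congr_fun (FreeGroup.ext_hom (FreeGroup.lift fun i => mk (FreeGroup.of (Fin.castAdd j i)))
        (mk.comp (FreeGroup.map (Fin.castAdd j))) fun i => by simp) x]
    exact PresentedGroup.one_of_mem (Finset.mem_coe.2
      (Finset.mem_union_left _ (Finset.mem_image_of_mem _ hx)))
  refine ⟨w, hasPres_of_hom w ?_ R ((Finset.card_union_le _ _).trans (Nat.add_le_add
    (Finset.card_image_le.trans hc) (Finset.card_image_le.trans (by simp)))) ?_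
    ((PresentedGroup.toGroup hrel).comp e.symm.toMonoidHom) fun i => ?_⟩
  · rw [eq_top_iff, ← closure_range_of_hasPres h, Subgroup.closure_le]
    rintro _ ⟨i, rfl⟩
    exact Subgroup.subset_closure ⟨Fin.castAdd j i, by simp [w]⟩
  · intro ρ hρ
    simp only [R, Finset.coe_union, Set.mem_union, Finset.coe_image, Set.mem_image, Finset.mem_coe] at hρ
    rcases hρ with ⟨x, hx, rfl⟩ | ⟨i, -, rfl⟩
    · rw [hmap, ← hlift, PresentedGroup.one_of_mem (rels := (↑rels : Set (FreeGroup (Fin k)))) hx, map_one]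
    · simp [w]
  · refine Fin.addCases (fun a => ?_) (fun a => ?_) i
    · show PresentedGroup.toGroup hrel (e.symm (w (Fin.castAdd j a))) = _
      simp only [w, Fin.append_left]
      rw [← he, MulEquiv.symm_apply_apply, PresentedGroup.toGroup.of]
      rfl
    · show PresentedGroup.toGroup hrel (e.symm (w (Fin.natAdd k a))) = _
      simp only [w, Fin.append_right, map_one]
      have hmem : FreeGroup.of (Fin.natAdd k a) ∈ R := Finset.mem_union_right _
        (Finset.mem_image_of_mem (fun i => FreeGroup.of (Fin.natAdd k i)) (Finset.mem_univ a))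
      exact (PresentedGroup.one_of_mem (rels := (↑R : Set (FreeGroup (Fin (k + j))))) hmem).symm

/-- A quotient by a normal cyclic subgroup costs one relator. -/
theorem hasPres_quot {H : Type*} [Group H] {k r : ℕ} {v : Fin k → H} (h : HasPres v r)
    (N : Subgroup H) [N.Normal] [hN : IsCyclic N] :
    HasPres (fun i => QuotientGroup.mk' N (v i)) (r + 1) := by
  classical
  obtain ⟨rels, hc, e, he⟩ := id h
  obtain ⟨g, hg⟩ := IsCyclic.exists_generator (α := N)
  have hgen := closure_range_of_hasPres h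
  set x0 := Function.invFun (FreeGroup.lift v) (g : H)
  have hx0 : FreeGroup.lift v x0 = g := lift_invFun hgen _
  let R : Finset (FreeGroup (Fin k)) := insert x0 rels
  have hlift : ∀ x, e (PresentedGroup.mk _ x) = FreeGroup.lift v x := fun x =>
    DFunLike.congr_fun (FreeGroup.ext_hom (e.toMonoidHom.comp (PresentedGroup.mk _))
      (FreeGroup.lift v) fun i => by
        simp only [MonoidHom.comp_apply, FreeGroup.lift_apply_of]
        exact he i) x
  have hrel : ∀ x ∈ (↑rels : Set (FreeGroup (Fin k))),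
      FreeGroup.lift (fun i => PresentedGroup.mk (↑R : Set (FreeGroup (Fin k))) (FreeGroup.of i)) x = 1 := by
    intro x hx
    rw [show FreeGroup.lift (fun i => PresentedGroup.mk (↑R : Set (FreeGroup (Fin k))) (FreeGroup.of i)) x =
        PresentedGroup.mk _ x from
      DFunLike.congr_fun (FreeGroup.ext_hom (FreeGroup.lift _) (PresentedGroup.mk _) fun i => by simp) x]
    exact PresentedGroup.one_of_mem (Finset.mem_coe.2 (Finset.mem_insert_of_mem hx))
  set ψ := (PresentedGroup.toGroup hrel).comp e.symm.toMonoidHom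
  have hψ : ∀ x, ψ (FreeGroup.lift v x) = PresentedGroup.mk (↑R : Set (FreeGroup (Fin k))) x := fun x =>
    DFunLike.congr_fun (FreeGroup.ext_hom (ψ.comp (FreeGroup.lift v)) (PresentedGroup.mk _) fun i => by
      show PresentedGroup.toGroup hrel (e.symm (FreeGroup.lift v (FreeGroup.of i))) = _
      rw [FreeGroup.lift_apply_of, ← he, MulEquiv.symm_apply_apply, PresentedGroup.toGroup.of]) x
  have hker : N ≤ ψ.ker := by
    intro a ha
    obtain ⟨t, ht⟩ := Subgroup.mem_zpowers_iff.1 (hg ⟨a, ha⟩)
    have ht' : (g : H) ^ t = a := by rw [← Subgroup.coe_zpow, ht]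
    rw [MonoidHom.mem_ker, ← ht', map_zpow, ← hx0, hψ,
      PresentedGroup.one_of_mem (Finset.mem_coe.2 (Finset.mem_insert_self _ _)), one_zpow]
  refine hasPres_of_hom _ ?_ R ((Finset.card_insert_le _ _).trans (Nat.add_le_add_right hc 1)) ?_
    (QuotientGroup.lift N ψ hker) fun i => ?_
  · rw [show Set.range (fun i => QuotientGroup.mk' N (v i)) = QuotientGroup.mk' N '' Set.range v from
      Set.range_comp _ _, ← MonoidHom.map_closure, hgen,
      Subgroup.map_top_of_surjective _ (QuotientGroup.mk'_surjective N)]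
  · intro ρ hρ
    rw [show FreeGroup.lift (fun i => QuotientGroup.mk' N (v i)) ρ = QuotientGroup.mk' N (FreeGroup.lift v ρ) from
      DFunLike.congr_fun (FreeGroup.ext_hom (FreeGroup.lift _)
        ((QuotientGroup.mk' N).comp (FreeGroup.lift v)) fun i => by simp) ρ]
    rcases Finset.mem_insert.1 (Finset.mem_coe.1 hρ) with rfl | hρ
    · rw [hx0]
      exact (QuotientGroup.eq_one_iff _).2 g.2
    · rw [← hlift, PresentedGroup.one_of_mem (rels := (↑rels : Set (FreeGroup (Fin k)))) hρ, map_one, map_one]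
  · show ψ (v i) = _
    have := hψ (FreeGroup.of i)
    rw [FreeGroup.lift_apply_of] at this
    exact this

/-- Eight relators on two generators for every alternating group. -/
theorem exists_alt_eight (n : ℕ) : ∃ v : Fin 2 → alternatingGroup (Fin n), HasPres v 8 := by
  rcases Nat.lt_or_ge n 5 with hn | hn
  · exact (pres_tiny n (by omega)).2
  · obtain ⟨⟨l, v, ⟨i, hi⟩, h⟩, -⟩ := pres_seven n hn
    obtain ⟨w, hw⟩ := partner_alt n hn
    exact ⟨_, pres_eight hi h hw⟩

/-- Two generators of the stabiliser of the first two points. -/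
theorem exists_stab_gens (m : ℕ) : ∃ sg : List (alternatingGroup (Fin (m + 4))), sg.length ≤ 2 ∧
    (∀ s ∈ sg, s.1 0 = 0 ∧ s.1 1 = 1) ∧
    ∀ σ : alternatingGroup (Fin (m + 4)), σ.1 0 = 0 → σ.1 1 = 1 →
      σ ∈ Subgroup.closure {x | x ∈ sg} := by
  classical
  obtain ⟨v, hv⟩ := exists_alt_eight (m + 2)
  have hgen := closure_range_of_hasPres hv
  let Q : Fin (m + 4) → Prop := fun x => x ≠ 0 ∧ x ≠ 1
  have hcard : Fintype.card {x // Q x} = m + 2 := by
    rw [Fintype.card_subtype,
      show (Finset.univ.filter Q) = ({0, 1} : Finset (Fin (m + 4)))ᶜ by ext x; simp [Q],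
      Finset.card_compl, Finset.card_pair pne01, Fintype.card_fin]
    omega
  let ι : {x // Q x} ≃ Fin (m + 2) := Fintype.equivFinOfCardEq hcard
  let emb : alternatingGroup (Fin (m + 2)) →* alternatingGroup (Fin (m + 4)) :=
    ((Perm.ofSubtype (p := Q)).comp (ι.symm.permCongrHom.toMonoidHom.comp
      (alternatingGroup (Fin (m + 2))).subtype)).codRestrict _ fun σ => by
      rw [Perm.mem_alternatingGroup]
      show Perm.sign (Perm.ofSubtype (ι.symm.permCongr σ.1)) = 1
      rw [Perm.sign_ofSubtype, Perm.sign_permCongr, Perm.mem_alternatingGroup.1 σ.2]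
  refine ⟨[emb (v 0), emb (v 1)], le_rfl, fun s hs => ?_, fun σ h0 h1 => ?_⟩
  · simp only [List.mem_cons, List.not_mem_nil, or_false] at hs
    have hfix : ∀ τ, (emb τ).1 0 = 0 ∧ (emb τ).1 1 = 1 := fun τ => by
      constructor <;> exact Perm.ofSubtype_apply_of_not_mem _ (by simp [Q])
    rcases hs with rfl | rfl <;> exact hfix _
  · have hiff : ∀ x, Q (σ.1 x) ↔ Q x := fun x => by
      simp only [Q, ne_eq, apply_eq_iff_fix σ.1 h0, apply_eq_iff_fix σ.1 h1]
    let τ : Perm (Fin (m + 2)) := ι.permCongr (σ.1.subtypePerm hiff)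
    have hfix : ∀ x, σ.1 x ≠ x → Q x := fun x hx => by
      constructor <;> rintro rfl
      · exact hx h0
      · exact hx h1
    have hτ : τ ∈ alternatingGroup (Fin (m + 2)) := by
      rw [Perm.mem_alternatingGroup, Perm.sign_permCongr]
      have := Perm.sign_ofSubtype (σ.1.subtypePerm hiff)
      rw [Perm.ofSubtype_subtypePerm hiff hfix, Perm.mem_alternatingGroup.1 σ.2] at this
      exact this.symm
    have he : emb ⟨τ, hτ⟩ = σ := Subtype.ext (by
      show Perm.ofSubtype (ι.symm.permCongr τ) = σ.1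
      rw [show ι.symm.permCongr τ = σ.1.subtypePerm hiff from Equiv.ext fun x => by simp [τ],
        Perm.ofSubtype_subtypePerm hiff hfix])
    have hmem : emb ⟨τ, hτ⟩ ∈ (Subgroup.closure (Set.range v)).map emb :=
      ⟨_, hgen.symm ▸ Subgroup.mem_top _, rfl⟩
    rw [he, MonoidHom.map_closure] at hmem
    refine (Subgroup.closure_le _).2 ?_ hmem
    rintro _ ⟨_, ⟨i, rfl⟩, rfl⟩
    refine Subgroup.subset_closure ?_
    fin_cases i <;> simp

/-- No even permutation of four points fixes exactly two. -/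
theorem stab_four (σ : alternatingGroup (Fin (0 + 4))) (h0 : σ.1 0 = 0) (h1 : σ.1 1 = 1) : σ = 1 := by
  have h : ∀ τ : Perm (Fin (0 + 4)), Perm.sign τ = 1 → τ 0 = 0 → τ 1 = 1 → τ = 1 := by decide
  exact Subtype.ext (h _ (Perm.mem_alternatingGroup.1 σ.2) h0 h1)

/-- Four relators present the alternating group of degree four. -/
theorem alt_four_four : ∃ v : Fin 2 → alternatingGroup (Fin 4), HasPres v 4 := by
  classical
  let a : FreeGroup (Fin 2) := FreeGroup.of 0
  let b : FreeGroup (Fin 2) := FreeGroup.of 1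
  let rels : Finset (FreeGroup (Fin 2)) := [a ^ 3, b ^ 3, (a * b) ^ 2, (b * a) ^ 2].toFinset
  let G := PresentedGroup (↑rels : Set (FreeGroup (Fin 2)))
  have hm : ∀ ρ ∈ [a ^ 3, b ^ 3, (a * b) ^ 2, (b * a) ^ 2],
      PresentedGroup.mk (↑rels : Set (FreeGroup (Fin 2))) ρ = 1 := fun ρ hρ =>
    PresentedGroup.one_of_mem (Finset.mem_coe.2 (List.mem_toFinset.2 hρ))
  let z : ℕ → G := fun i => if i = 0 then PresentedGroup.of 0 else PresentedGroup.of 1
  obtain ⟨ψ, hψ⟩ := exists_carm_hom (z := z) (m := 2)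
    ⟨fun i hi => by
      rcases (show i = 0 ∨ i = 1 by omega) with rfl | rfl
      · exact hm (a ^ 3) (by simp)
      · exact hm (b ^ 3) (by simp),
    fun i j hi hj hij => by
      rcases (show i = 0 ∧ j = 1 ∨ i = 1 ∧ j = 0 by omega) with ⟨rfl, rfl⟩ | ⟨rfl, rfl⟩
      · exact hm ((a * b) ^ 2) (by simp)
      · exact hm ((b * a) ^ 2) (by simp)⟩
  have m0 : cyc3 (0 : Fin 4) 1 2 ∈ alternatingGroup (Fin 4) :=
    Perm.mem_alternatingGroup.2 (by decide)
  have m1 : cyc3 (0 : Fin 4) 1 3 ∈ alternatingGroup (Fin 4) :=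
    Perm.mem_alternatingGroup.2 (by decide)
  refine ⟨![⟨_, m0⟩, ⟨_, m1⟩], hasPres_of_hom _ ?_ rels
    ((List.toFinset_card_le _).trans le_rfl) ?_ ψ ?_⟩
  · rw [eq_top_iff]
    intro σ _
    let X := (Subgroup.closure (Set.range ![(⟨_, m0⟩ : alternatingGroup (Fin 4)), ⟨_, m1⟩])).map
      (alternatingGroup (Fin 4)).subtype
    have hX : altOn (Set.univ : Set (Fin 4)) ≤ X := by
      refine altOn_le_of_cyc3 (c := (0 : Fin 4)) (e := 1) (by decide) fun t _ h0 h1 => ?_
      rw [cyc3_rotate h0 h1]
      fin_cases t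
      · exact absurd rfl h0
      · exact absurd rfl h1
      · exact ⟨_, Subgroup.subset_closure ⟨0, rfl⟩, rfl⟩
      · exact ⟨_, Subgroup.subset_closure ⟨1, rfl⟩, rfl⟩
    obtain ⟨τ, hτ, e⟩ := hX ⟨Perm.mem_alternatingGroup.1 σ.2, fun x hx => absurd (Set.mem_univ x) hx⟩
    rwa [show τ = σ from Subtype.ext e] at hτ
  · intro ρ hρ
    rw [Finset.mem_coe, List.mem_toFinset] at hρ
    simp only [List.mem_cons, List.not_mem_nil, or_false] at hρ
    rcases hρ with rfl | rfl | rfl | rfl <;>
      simp only [a, b, map_pow, map_mul, FreeGroup.lift_apply_of] <;>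
      (apply Subtype.ext;
        simp only [Matrix.cons_val_zero, Matrix.cons_val_one, SubmonoidClass.coe_pow,
          Subgroup.coe_mul, OneMemClass.coe_one];
        decide)
  · intro i
    fin_cases i
    · exact hψ 0 (by norm_num) m0
    · exact hψ 1 (by norm_num) m1

end Cfsg.Agent.ShortPres
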