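import Cfsg.Agent.Linear.Transvection

/-!
Monomial matrices and their action on transvections.
-/

set_option autoImplicit false

namespace Cfsg.Agent.ShortPres

open Equiv Matrix

variable {n : Type*} [Fintype n] [DecidableEq n] {F : Type*} [Field F]

/-- The matrix of a permutation. -/
def permMat (σ : Perm n) : Matrix n n F := Matrix.of fun x y => if x = σ y then 1 else 0

theorem permMat_mul_apply (σ : Perm n) (A : Matrix n n F) (x y : n) :
    (permMat σ * A : Matrix n n F) (σ x) y = A x y := by
  simp [permMat, Matrix.mul_apply]

theorem mul_permMat_apply (σ : Perm n) (A : Matrix n n F) (x y : n) :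
    (A * permMat σ : Matrix n n F) x y = A x (σ y) := by
  simp [permMat, Matrix.mul_apply]

theorem permMat_mul (σ τ : Perm n) : (permMat σ * permMat τ : Matrix n n F) = permMat (σ * τ) := by
  ext x y
  rw [mul_permMat_apply]
  rfl

theorem permMat_one : (permMat 1 : Matrix n n F) = 1 := by
  ext x y
  by_cases h : x = y <;> simp [permMat, h, Matrix.one_apply]

theorem permMat_conj (σ : Perm n) {A B : Matrix n n F} (h : ∀ x y, B (σ x) (σ y) = A x y) :
    permMat σ * A = B * permMat σ := by
  ext a y
  obtain ⟨x, rfl⟩ := σ.surjective a
  rw [permMat_mul_apply, mul_permMat_apply, h]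

theorem permMat_conj_transvection (σ : Perm n) (i j : n) (t : F) :
    permMat σ * transvection i j t = transvection (σ i) (σ j) t * permMat σ :=
  permMat_conj σ fun x y => by
    simp [transvection, Matrix.one_apply, Matrix.single_apply]

theorem permMat_conj_diagonal (σ : Perm n) (f : n → F) :
    permMat σ * diagonal f = diagonal (fun x => f (σ.symm x)) * permMat σ :=
  permMat_conj σ fun x y => by simp [diagonal_apply]

theorem diagonal_conj_transvection (f : n → F) {i j : n} (t u : F) (h : f i * t = u * f j) :
    diagonal f * transvection i j t = transvection i j u * diagonal f := by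
  ext x y
  simp only [diagonal_mul, mul_diagonal, transvection, Matrix.add_apply, Matrix.one_apply,
    Matrix.single_apply]
  by_cases hxy : x = y <;> by_cases hij : i = x ∧ j = y
  · obtain ⟨rfl, rfl⟩ := hij; subst hxy; simp [mul_add, add_mul, h]
  · subst hxy; simp [hij]
  · obtain ⟨rfl, rfl⟩ := hij; simp [hxy, h]
  · simp [hxy, hij]

theorem det_permMat (σ : Perm n) : (permMat σ : Matrix n n F).det = ((Perm.sign σ : ℤ) : F) := by
  have : (permMat σ : Matrix n n F) = (σ⁻¹).permMatrix F := by
    ext x y
    simp only [permMat, Matrix.of_apply, Equiv.Perm.permMatrix, PEquiv.toMatrix_apply,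
      Equiv.toPEquiv_apply, Option.mem_some_iff, Option.some.injEq]
    refine if_congr ⟨fun h => ?_, fun h => ?_⟩ rfl rfl
    · rw [h]; simp
    · rw [← h]; simp
  rw [this, Matrix.det_permutation, Perm.sign_inv]

/-- The even permutations as matrices of determinant one. -/
def permSL : alternatingGroup n →* SpecialLinearGroup n F where
  toFun σ := ⟨permMat σ.1, by rw [det_permMat, Perm.mem_alternatingGroup.1 σ.2]; simp⟩
  map_one' := Subtype.ext permMat_one
  map_mul' σ τ := Subtype.ext (permMat_mul σ.1 τ.1).symm

theorem permSL_val (σ : alternatingGroup n) :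
    ((permSL σ : SpecialLinearGroup n F) : Matrix n n F) = permMat σ.1 := rfl

end Cfsg.Agent.ShortPres
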