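import Cfsg.Agent.ShortPres.Scale
import Cfsg.Agent.ShortPres.Mono
import Cfsg.Agent.GKKL.Setup

/-!
A group satisfying the short list of relations is the special linear group.
-/

set_option autoImplicit false

namespace Cfsg.Agent.ShortPres

open Equiv Matrix

variable {m : ℕ} {F : Type*} [Field F] [Finite F] {P : Type*} [Group P]

/-- The diagonal of the standard torus element. -/
def diagFn (m : ℕ) (a : Fˣ) : Fin (m + 4) → F :=
  fun x => if x = 0 then (a : F) else if x = 1 then ((a⁻¹ : Fˣ) : F) else 1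

/-- The standard torus as a homomorphism. -/
def diagSL (m : ℕ) : Fˣ →* SpecialLinearGroup (Fin (m + 4)) F where
  toFun a := ⟨diagonal (diagFn m a), by
    rw [det_diagonal, Finset.prod_eq_mul (0 : Fin (m + 4)) 1 pne01
      (fun x _ hx => by simp [diagFn, hx.1, hx.2]) (by simp) (by simp)]
    simp [diagFn, pne01.symm]⟩
  map_one' := Subtype.ext (by
    show diagonal (diagFn m (1 : Fˣ)) = 1
    rw [← diagonal_one]; congr 1; funext x; simp [diagFn])
  map_mul' a b := Subtype.ext (by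
    show diagonal (diagFn m (a * b)) = diagonal (diagFn m a) * diagonal (diagFn m b)
    rw [diagonal_mul_diagonal]; congr 1; funext x
    simp only [diagFn]
    split_ifs <;> simp [mul_comm])

/-- The special linear images of the data. -/
structure Eval (S : Seed m F P) (u : P) (E : P →* SpecialLinearGroup (Fin (m + 4)) F) : Prop where
  map_π : ∀ σ, E (S.π σ) = permSL σ
  map_h : E S.h = diagSL m S.ξ
  map_u : E u = SpecialLinearGroup.transvection pne01 (1 : F)

theorem conj_val {n : Type*} [Fintype n] [DecidableEq n] (g A B : SpecialLinearGroup n F)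
    (h : (g : Matrix n n F) * (A : Matrix n n F) = (B : Matrix n n F) * g) : MulAut.conj g A = B := by
  rw [MulAut.conj_apply, mul_inv_eq_iff_eq_mul]
  exact Subtype.ext h

theorem map_conj {P' : Type*} [Group P'] (f : P →* P') (g x : P) :
    f (MulAut.conj g x) = MulAut.conj (f g) (f x) := by simp [MulAut.conj_apply]

variable {p : ℕ} [Fact p.Prime] [Algebra (ZMod p) F] {S : Seed m F P} {u : P} {U : RootSeed S u}
  {E : P →* SpecialLinearGroup (Fin (m + 4)) F}

omit [Fact p.Prime] [Algebra (ZMod p) F] in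
theorem eval_X (hE : Eval S u E) {i j : Fin (m + 4)} (hij : i ≠ j) (s : Fˣ) :
    E (U.X i j s) = SpecialLinearGroup.transvection hij (s : F) := by
  have hφ : E.comp S.φ₀ = diagSL m := S.ext_gen (by simpa [S.φ₀_gen] using hE.map_h)
  have hτ : ∀ ρ : alternatingGroup (Fin (m + 4)), ρ.1 0 = 0 → ρ.1 1 = 2 →
      (E (S.φ 0 2 s) : Matrix (Fin (m + 4)) (Fin (m + 4)) F) =
        diagonal fun x => diagFn m s (ρ.1.symm x) := by
    intro ρ h0 h1
    have hc : MulAut.conj (permSL (F := F) ρ) (diagSL m s) = E (S.φ 0 2 s) := by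
      rw [S.φ_eq pne02 ρ h0 h1, map_conj, hE.map_π, ← hφ]; rfl
    rw [MulAut.conj_apply, mul_inv_eq_iff_eq_mul] at hc
    have hv : (permMat ρ.1 : Matrix (Fin (m + 4)) (Fin (m + 4)) F) * diagonal (diagFn m s) =
        (E (S.φ 0 2 s) : Matrix (Fin (m + 4)) (Fin (m + 4)) F) * permMat ρ.1 := by
      rw [← permSL_val]
      exact congrArg (fun g : SpecialLinearGroup (Fin (m + 4)) F =>
        (g : Matrix (Fin (m + 4)) (Fin (m + 4)) F)) hc
    rw [permMat_conj_diagonal] at hv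
    have := congrArg (· * (permMat ρ.1⁻¹ : Matrix (Fin (m + 4)) (Fin (m + 4)) F)) hv
    simpa [mul_assoc, permMat_mul, permMat_one] using this.symm
  obtain ⟨ρ, h0, h1⟩ := Seed.exists_std (pne02 (m := m))
  rw [RootSeed.X, dif_neg hij, map_conj, hE.map_π, map_conj, hE.map_u, RootSeed.std02,
    U.torus.τ_pair]
  have e1 : MulAut.conj (E (S.φ 0 2 s)) (SpecialLinearGroup.transvection pne01 (1 : F)) =
      SpecialLinearGroup.transvection pne01 (s : F) := conj_val _ _ _ (by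
    rw [hτ ρ h0 h1]
    refine diagonal_conj_transvection _ _ _ ?_
    have e2 : ρ.1.symm 1 ≠ 0 := fun e => pne01 (by rw [← h0, ← e, Equiv.apply_symm_apply])
    have e3 : ρ.1.symm 1 ≠ 1 := fun e => pne12 ((((Equiv.symm_apply_eq _).1 e)).trans h1)
    rw [show ρ.1.symm 0 = 0 from Equiv.symm_apply_eq _ |>.2 h0.symm]
    simp [diagFn, e2, e3])
  rw [e1]
  refine conj_val _ _ _ ?_
  rw [permSL_val, show ((SpecialLinearGroup.transvection pne01 (s : F) :
      SpecialLinearGroup (Fin (m + 4)) F) : Matrix (Fin (m + 4)) (Fin (m + 4)) F) =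
      Matrix.transvection 0 1 (s : F) from rfl, permMat_conj_transvection, Seed.std_zero, Seed.std_one]
  rfl

/-- Three-cycles generate. -/
theorem pi_mem_of_cyc3 (π : alternatingGroup (Fin (m + 4)) →* P) (K : Subgroup P)
    (hK : ∀ σ, ∀ x ∈ K, MulAut.conj (π σ) x ∈ K)
    (c : alternatingGroup (Fin (m + 4))) (hc : c.1 = GKKL.cyc3 0 1 2) (hcK : π c ∈ K)
    (σ : alternatingGroup (Fin (m + 4))) : π σ ∈ K := by
  have hle : GKKL.altOn (Set.univ : Set (Fin (m + 4))) ≤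
      (K.comap π).map (alternatingGroup (Fin (m + 4))).subtype := by
    refine GKKL.altOn_le_of_cyc3 (c := (0 : Fin (m + 4))) (e := 1) pne01 fun t _ h0 h1 => ?_
    rw [GKKL.cyc3_rotate h0 h1]
    obtain ⟨ρ, h | h⟩ := exists_even_or_odd ![0, 1, 2] ![0, 1, t] (injective_vec3 pne01 pne02 pne12)
      (injective_vec3 pne01 h0.symm h1.symm) (swap 0 1) (Perm.sign_swap pne01)
    all_goals
      have e0 := h 0; have e1 := h 1; have e2 := h 2
      simp only [Matrix.cons_val_zero, Matrix.cons_val_one, Matrix.cons_val_two,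
        Matrix.head_cons, Matrix.tail_cons, swap_apply_left, swap_apply_right,
        swap_apply_of_ne_of_ne pne02.symm pne12.symm] at e0 e1 e2
      have he : (ρ * c * ρ⁻¹).1 = GKKL.cyc3 (ρ.1 0) (ρ.1 1) (ρ.1 2) := by
        rw [Subgroup.coe_mul, Subgroup.coe_mul, Subgroup.coe_inv, hc, GKKL.conj_cyc3]
      have hmem : ρ * c * ρ⁻¹ ∈ K.comap π := by
        rw [Subgroup.mem_comap, map_mul, map_mul, map_inv, ← MulAut.conj_apply]
        exact hK _ _ hcK
      rw [e0, e1, e2] at he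
    · exact ⟨ρ * c * ρ⁻¹, hmem, he⟩
    · refine ⟨(ρ * c * ρ⁻¹)⁻¹, (K.comap π).inv_mem hmem, ?_⟩
      rw [map_inv, Subgroup.coe_subtype, he, GKKL.cyc3_swap h0 h1, inv_inv]
  obtain ⟨τ, hτ, e⟩ := hle ⟨Perm.mem_alternatingGroup.1 σ.2, fun x hx => absurd (Set.mem_univ x) hx⟩
  rwa [show τ = σ from Subtype.ext e] at hτ

/-- The recognition theorem. -/
theorem bijective_eval (R : RootRels p U) (hE : Eval S u E)
    (c : alternatingGroup (Fin (m + 4))) (hc : c.1 = GKKL.cyc3 0 1 2)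
    (hcw : S.π c ∈ Subgroup.closure {x | ∃ i j, i ≠ j ∧ ∃ s, U.X i j s = x})
    (hgen : Subgroup.closure (Set.range S.π ∪ {S.h, u}) = ⊤) : Function.Bijective E := by
  obtain ⟨Y, hSys, hY⟩ := R.exists_sys
  obtain ⟨Φ, hΦ⟩ := Spec.StPres.exists_hom (by omega : 3 ≤ m + 4) hSys
  set K := Subgroup.closure {x | ∃ i j, i ≠ j ∧ ∃ s, U.X i j s = x} with hK
  have hrange : K ≤ Φ.range := by
    rw [hK, Subgroup.closure_le]
    rintro _ ⟨i, j, hij, s, rfl⟩
    exact ⟨_, (hΦ i j hij s).trans (hY i j hij s)⟩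
  have hinv : ∀ σ, ∀ x ∈ K, MulAut.conj (S.π σ) x ∈ K := by
    intro σ x hx
    have hle : K.map (MulAut.conj (S.π σ)).toMonoidHom ≤ K := by
      rw [hK, MonoidHom.map_closure, Subgroup.closure_le]
      rintro _ ⟨_, ⟨i, j, hij, s, rfl⟩, rfl⟩
      exact Subgroup.subset_closure ⟨σ.1 i, σ.1 j, σ.1.injective.ne hij, s, (U.conj_π_X σ hij s).symm⟩
    exact hle ⟨x, hx, rfl⟩
  have hπK : ∀ σ, S.π σ ∈ K := fun σ => pi_mem_of_cyc3 S.π K hinv c hc hcw σ
  have hτK : ∀ x ∈ K, MulAut.conj S.h⁻¹ x ∈ K := by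
    intro x hx
    have hh' : S.h⁻¹ = U.torus.τ (Pi.mulSingle 0 S.ξ⁻¹ / Pi.mulSingle 1 S.ξ⁻¹) := by
      rw [U.torus.τ_pair, map_inv, S.φ_one_zero]
    have hle : K.map (MulAut.conj S.h⁻¹).toMonoidHom ≤ K := by
      rw [hK, MonoidHom.map_closure, Subgroup.closure_le]
      rintro _ ⟨_, ⟨i, j, hij, s, rfl⟩, rfl⟩
      refine Subgroup.subset_closure ⟨i, j, hij,
        (Pi.mulSingle 0 S.ξ⁻¹ / Pi.mulSingle 1 S.ξ⁻¹ : Fin (m + 4) → Fˣ) i /
          (Pi.mulSingle 0 S.ξ⁻¹ / Pi.mulSingle 1 S.ξ⁻¹ : Fin (m + 4) → Fˣ) j * s, ?_⟩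
      rw [hh', MulEquiv.coe_toMonoidHom, U.conj_τ_X ?_ hij]
      simp [Finset.prod_div_distrib, Fintype.prod_pi_mulSingle']
    exact hle ⟨x, hx, rfl⟩
  have hh : S.h ∈ K := by
    obtain ⟨σ, hσ0, hσ1⟩ := Seed.exists_std (pne12 (m := m))
    obtain ⟨ρ, hρ0, hρ1⟩ := Seed.exists_std (pne02 (m := m))
    have ht := U.torus.tri
    rw [S.φ_one_zero, S.φ_eq pne12 σ hσ0 hσ1, S.φ_eq pne02 ρ hρ0 hρ1, S.φ₀_gen,
      MulAut.conj_apply, MulAut.conj_apply] at ht
    have hmem : S.π σ * S.h * (S.π σ)⁻¹ =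
        MulAut.conj S.h⁻¹ (S.π ρ) * (S.π ρ)⁻¹ := by
      rw [MulAut.conj_apply, inv_inv, mul_assoc S.h⁻¹, mul_assoc S.h⁻¹, ← ht, inv_mul_cancel_left]
    have h1 : S.π σ * S.h * (S.π σ)⁻¹ ∈ K :=
      hmem ▸ K.mul_mem (hτK _ (hπK ρ)) (K.inv_mem (hπK ρ))
    have h2 := K.mul_mem (K.mul_mem (K.inv_mem (hπK σ)) h1) (hπK σ)
    rwa [show (S.π σ)⁻¹ * (S.π σ * S.h * (S.π σ)⁻¹) * S.π σ = S.h by group] at h2
  have hsurj : Function.Surjective Φ := by
    rw [← MonoidHom.range_eq_top, eq_top_iff, ← hgen, Subgroup.closure_le]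
    rintro x (⟨σ, rfl⟩ | rfl | rfl)
    · exact hrange (pi_mem_of_cyc3 S.π K hinv c hc hcw σ)
    · exact hrange hh
    · exact hrange (Subgroup.subset_closure ⟨0, 1, pne01, 1, U.X_seed⟩)
  have hid : ∀ A, E (Φ A) = A := fun A => by
    induction A using Cfsg.Agent.Linear.transvection_induction with
    | htransvec i j h t =>
      rcases eq_or_ne t 0 with rfl | ht
      · rw [show SpecialLinearGroup.transvection h (0 : F) = 1 from
          Subtype.ext (Matrix.transvection_zero i j), map_one, map_one]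
      have e := hY i j h (Units.mk0 t ht)
      rw [Units.val_mk0] at e
      rw [hΦ i j h t, e, eval_X hE h, Units.val_mk0]
    | hmul A B hA hB => rw [map_mul, map_mul, hA, hB]
  refine ⟨fun x y e => ?_, fun A => ⟨Φ A, hid A⟩⟩
  obtain ⟨a, rfl⟩ := hsurj x
  obtain ⟨b, rfl⟩ := hsurj y
  rw [hid, hid] at e
  rw [e]

end Cfsg.Agent.ShortPres
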