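import Cfsg.Agent.ShortPres.Words

/-!
Presentations of the special linear groups from presentations of alternating groups.
-/

set_option autoImplicit false

namespace Cfsg.Agent.ShortPres

open Equiv Matrix Cfsg.Agent.GKKL

theorem closure_range_of_hasPres {H : Type*} [Group H] {l r : ℕ} {v : Fin l → H} (h : HasPres v r) :
    Subgroup.closure (Set.range v) = ⊤ := by
  obtain ⟨rels, -, e, he⟩ := h
  have hr : Set.range v = e.toMonoidHom '' Set.range PresentedGroup.of := by
    rw [← Set.range_comp]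
    exact congrArg Set.range (funext fun i => (he i).symm)
  rw [hr, ← MonoidHom.map_closure, PresentedGroup.closure_range_of,
    Subgroup.map_top_of_surjective _ e.surjective]

theorem lift_invFun {H : Type*} [Group H] {l : ℕ} {v : Fin l → H}
    (h : Subgroup.closure (Set.range v) = ⊤) (y : H) :
    FreeGroup.lift v (Function.invFun (FreeGroup.lift v) y) = y :=
  Function.invFun_eq (MonoidHom.mem_range.1
    ((FreeGroup.range_lift_eq_closure (f := v)).symm ▸ h.symm ▸ trivial))

variable {m l r : ℕ} {F : Type*} [Field F] [Finite F]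

theorem pow_eq_pow_of_modEq {G : Type*} [Group G] {x : G} {n a c : ℕ} (hx : x ^ n = 1)
    (h : a ≡ c [MOD n]) : x ^ a = x ^ c :=
  pow_eq_pow_iff_modEq.2 (h.of_dvd (orderOf_dvd_of_pow_eq_one hx))

/-- Words of permutations evaluate to their images. -/
theorem val_πw {G : Type*} [Group G] (D : WordData m l) (π : alternatingGroup (Fin (m + 4)) →* G)
    (g : FreeGroup (Fin (l + 1)) →* G) (hgen : Subgroup.closure (Set.range D.v) = ⊤)
    (hg : ∀ i, g (FreeGroup.of (Fin.castSucc i)) = π (D.v i)) (σ : alternatingGroup (Fin (m + 4))) :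
    g (D.πw σ) = π σ := by
  have h1 : ∀ x, π (FreeGroup.lift D.v x) = g (FreeGroup.map Fin.castSucc x) := fun x =>
    DFunLike.congr_fun (FreeGroup.ext_hom (π.comp (FreeGroup.lift D.v))
      (g.comp (FreeGroup.map Fin.castSucc)) fun i => by simp [hg]) x
  conv_rhs => rw [← lift_invFun hgen σ]
  exact (h1 _).symm

/-- The exponents of the two commuting factors. -/
structure Expo (p N α β : ℕ) : Prop where
  α₁ : α ≡ 1 [MOD p]
  α₂ : α ≡ 0 [MOD N]
  β₁ : β ≡ 0 [MOD p]
  β₂ : β ≡ 1 [MOD N]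
  sum : α + β ≡ 1 [MOD p * N]

theorem exists_expo (p : ℕ) [Fact p.Prime] [CharP F p] :
    ∃ α β, Expo p (Nat.card Fˣ) α β := by
  have hcop : Nat.Coprime p (Nat.card Fˣ) := by
    refine ((Fact.out : p.Prime).coprime_iff_not_dvd).2 fun hdvd => ?_
    obtain ⟨x, hx⟩ := exists_prime_orderOf_dvd_card' p hdvd
    have h1 : ((x : F) - 1) ^ p = 0 := by
      rw [sub_pow_char, one_pow, ← Units.val_pow_eq_pow_val, ← hx, pow_orderOf_eq_one, Units.val_one,
        sub_self]
    have h2 : x = 1 := Units.ext (sub_eq_zero.1 (eq_zero_of_pow_eq_zero h1))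
    rw [h2, orderOf_one] at hx
    exact (Fact.out : p.Prime).one_lt.ne hx
  obtain ⟨α, hα₁, hα₂⟩ := Nat.chineseRemainder hcop 1 0
  obtain ⟨β, hβ₁, hβ₂⟩ := Nat.chineseRemainder hcop 0 1
  exact ⟨α, β, hα₁, hα₂, hβ₁, hβ₂, (Nat.modEq_and_modEq_iff_modEq_mul hcop).1
    ⟨hα₁.add hβ₁, hα₂.add hβ₂⟩⟩

variable {p : ℕ} [Fact p.Prime] [Algebra (ZMod p) F] {ξ : Fˣ} {hξ : ∀ a : Fˣ, a ∈ Subgroup.zpowers ξ}

/-- The new generator in the target. -/
noncomputable def z₀ (ξ : Fˣ) (hξ : ∀ a : Fˣ, a ∈ Subgroup.zpowers ξ) :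
    SpecialLinearGroup (Fin (m + 4)) F := u0 m F * (seed0 ξ hξ).φ 2 3 ξ

theorem z₀_pow (k : ℕ) :
    (z₀ (m := m) ξ hξ) ^ k = u0 m F ^ k * (seed0 ξ hξ).φ 2 3 ξ ^ k := by
  have h : Commute (u0 m F) ((seed0 (m := m) ξ hξ).φ 2 3 ξ) := (rootSeed0 (hξ := hξ)).ker₁.symm
  exact h.mul_pow k

theorem u0_pow_p : u0 m F ^ p = 1 := by
  obtain ⟨ξ, hξ⟩ := IsCyclic.exists_generator (α := Fˣ)
  rw [← (rootSeed0 (m := m) (ξ := ξ) (hξ := hξ)).X_seed]
  exact (rootRels_seed0 p).pu

theorem φ23_pow : (seed0 (m := m) ξ hξ).φ 2 3 ξ ^ Nat.card Fˣ = 1 := by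
  rw [← map_pow, pow_card_eq_one', map_one]

/-- The relators hold for the natural generators of the target. -/
theorem target_val (C : Choices m l F) (D : WordData m l) (hp : C.p = p) (hN : C.N = Nat.card Fˣ)
    (hE : Expo p (Nat.card Fˣ) D.α D.β)
    (hcf : ∀ i, C.cf i = ((minpoly (ZMod p) (ξ : F)).coeff i).val)
    (hdeg : C.deg = (minpoly (ZMod p) (ξ : F)).natDegree)
    (hgen : Subgroup.closure (Set.range D.v) = ⊤)
    (hsg : ∀ s ∈ C.sg, s.1 0 = 0 ∧ s.1 1 = 1) (hdj : ∀ d ∈ C.dj, Function.Injective d)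
    (hst : ∀ d ∈ C.st, Function.Injective d)
    (hword : FreeGroup.lift (fun a : {a : Fin (m + 4) × Fin (m + 4) // a.1 ≠ a.2} × ℕ =>
      SpecialLinearGroup.transvection a.1.2 ((ξ : F) ^ a.2)) C.cword = permSL C.c)
    (g : FreeGroup (Fin (l + 1)) →* SpecialLinearGroup (Fin (m + 4)) F)
    (hgv : ∀ i, g (FreeGroup.of (Fin.castSucc i)) = permSL (D.v i))
    (hgz : g WordData.zw = z₀ ξ hξ) :
    ∀ x ∈ C.extra D, g x = 1 := by
  have hU0 : RootSeed (seed0 (m := m) ξ hξ) (u0 m F) := rootSeed0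
  have hR0 : RootRels p hU0 := rootRels_seed0 p
  have hπ : ∀ σ, g (D.πw σ) = (seed0 (m := m) ξ hξ).π σ := val_πw D permSL g hgen hgv
  have V0 : D.Val (seed0 (m := m) ξ hξ) (u0 m F) g := by
    refine ⟨hπ, ?_, ?_⟩
    · rw [WordData.hw, map_conj, hπ, map_pow, hgz, z₀_pow, pow_eq_pow_of_modEq u0_pow_p hE.β₁,
        pow_eq_pow_of_modEq φ23_pow hE.β₂, pow_zero, one_mul, pow_one, Seed.conj_φ, pairSwap_two,
        pairSwap_three]
      exact Seed.φ_one_zero _
    · rw [WordData.uw, map_pow, hgz, z₀_pow, pow_eq_pow_of_modEq u0_pow_p hE.α₁,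
        pow_eq_pow_of_modEq φ23_pow hE.α₂, pow_zero, mul_one, pow_one]
  intro x hx
  simp only [Choices.extra, List.mem_append, List.mem_cons, List.not_mem_nil, or_false, List.mem_map] at hx
  rcases hx with (((((rfl | rfl | rfl | rfl | rfl | rfl | rfl | rfl) | ⟨s, hs, rfl⟩) | ⟨s, hs, rfl⟩) |
    ⟨d, hd, rfl⟩) | ⟨d, hd, rfl⟩) | hρ
  · rw [map_pow, hgz, z₀_pow, hp, hN, pow_mul, u0_pow_p, one_pow, pow_mul', φ23_pow, one_pow, one_mul]
  · rw [commW_iff, D.val_φ_one V0, D.val_φ_one V0]; exact hU0.torus.comm3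
  · rw [eqW_iff, map_mul, D.val_φ_one V0, D.val_φ_one V0, D.val_φ_one V0]; exact hU0.torus.tri
  · rw [commW_iff, map_mul, D.val_φ_one V0, D.val_φ_one V0, V0.map_u]; exact hU0.ker₂
  · rw [commW_iff, D.val_X_one V0 hU0, D.val_X_one V0 hU0]; exact hR0.row
  · rw [commW_iff, D.val_X_one V0 hU0, D.val_X_one V0 hU0]; exact hR0.col
  · rw [map_list_prod, List.map_map, hdeg]
    refine Eq.trans (congrArg List.prod (List.map_congr_left fun i _ => ?_)) hR0.minp
    simp only [Function.comp_apply, map_pow, D.val_X V0 hU0, hcf]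
    rfl
  · rw [eqW_iff, V0.map_π]
    show permSL _ = (g.comp (FreeGroup.lift
      fun a : {a : Fin (m + 4) × Fin (m + 4) // a.1 ≠ a.2} × ℕ => D.Xw a.1.1.1 a.1.1.2 a.2)) C.cword
    rw [← hword]
    refine (DFunLike.congr_fun (FreeGroup.ext_hom _ _ fun a => ?_) C.cword).symm
    simp only [MonoidHom.comp_apply, FreeGroup.lift_apply_of]
    rw [D.val_X V0 hU0, X_seed0 a.1.2]
    simp [seed0]
  · rw [commW_iff, V0.map_π, V0.map_u]; exact hU0.stab_u s (hsg s hs).1 (hsg s hs).2
  · rw [commW_iff, V0.map_π, V0.map_h]; exact Seed.stab_h _ s (hsg s hs).1 (hsg s hs).2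
  · rw [commW_iff, D.val_X_one V0 hU0, D.val_X_one V0 hU0]
    exact hR0.disj _ _ _ _ ((hdj d hd).ne (by decide)) ((hdj d hd).ne (by decide))
      ((hdj d hd).ne (by decide)) ((hdj d hd).ne (by decide)) ((hdj d hd).ne (by decide))
      ((hdj d hd).ne (by decide))
  · rw [eqW_iff]
    simp only [map_mul, D.val_X_one V0 hU0]
    exact hR0.step _ _ _ ((hst d hd).ne (by decide)) ((hst d hd).ne (by decide)) ((hst d hd).ne (by decide))
  · cases hb : C.withInv
    · simp [hb] at hρ
    · simp only [hb, if_true, List.mem_singleton] at hρ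
      rw [hρ, eqW_iff, map_inv, D.val_φ_one V0, D.val_φ_one V0]
      exact hU0.torus.inv

theorem commute_of_closure {P : Type*} [Group P] (π : alternatingGroup (Fin (m + 4)) →* P) (y : P)
    (sg : List (alternatingGroup (Fin (m + 4)))) (h : ∀ s ∈ sg, Commute (π s) y)
    {σ : alternatingGroup (Fin (m + 4))} (hσ : σ ∈ Subgroup.closure {x | x ∈ sg}) : Commute (π σ) y := by
  induction hσ using Subgroup.closure_induction with
  | mem x hx => exact h x hx
  | one => rw [map_one]; exact Commute.one_left _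
  | mul a b _ _ ha hb => rw [map_mul]; exact ha.mul_left hb
  | inv a _ ha => rw [map_inv]; exact ha.inv_left

/-- Any group with generators satisfying the relators maps bijectively onto the target. -/
theorem recognise {P : Type*} [Group P] (C : Choices m l F) (D : WordData m l) (hp : C.p = p)
    (hN : C.N = Nat.card Fˣ) (hE : Expo p (Nat.card Fˣ) D.α D.β)
    (hcf : ∀ i, C.cf i = ((minpoly (ZMod p) (ξ : F)).coeff i).val)
    (hdeg : C.deg = (minpoly (ZMod p) (ξ : F)).natDegree)
    (hgen : Subgroup.closure (Set.range D.v) = ⊤)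
    (hsg' : ∀ σ : alternatingGroup (Fin (m + 4)), σ.1 0 = 0 → σ.1 1 = 1 →
      σ ∈ Subgroup.closure {x | x ∈ C.sg})
    (hdj' : ∀ f : Fin 4 → Fin (m + 4), Function.Injective f →
      ∃ d ∈ C.dj, ∃ σ : alternatingGroup (Fin (m + 4)), ∀ t, σ.1 (d t) = f t)
    (hst' : ∀ f : Fin 3 → Fin (m + 4), Function.Injective f →
      ∃ d ∈ C.st, ∃ σ : alternatingGroup (Fin (m + 4)), ∀ t, σ.1 (d t) = f t)
    (hb : C.withInv = false → 1 ≤ m) (hc : C.c.1 = GKKL.cyc3 0 1 2)
    (π : alternatingGroup (Fin (m + 4)) →* P) (g : FreeGroup (Fin (l + 1)) →* P)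
    (hgv : ∀ i, g (FreeGroup.of (Fin.castSucc i)) = π (D.v i))
    (hrel : ∀ x ∈ C.extra D, g x = 1)
    (hPgen : Subgroup.closure (Set.range π ∪ {g WordData.zw}) = ⊤)
    (E : P →* SpecialLinearGroup (Fin (m + 4)) F) (hEπ : ∀ σ, E (π σ) = permSL σ)
    (hEz : E (g WordData.zw) = z₀ ξ hξ) : Function.Bijective E := by
  have hπ : ∀ σ, g (D.πw σ) = π σ := val_πw D π g hgen hgv
  have hzord : g WordData.zw ^ (p * Nat.card Fˣ) = 1 := by
    rw [← map_pow, ← hp, ← hN]; exact hrel _ (by simp [Choices.extra])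
  have hstab : ∀ y, (∀ s ∈ C.sg, g (commW (D.πw s) y) = 1) →
      ∀ σ : alternatingGroup (Fin (m + 4)), σ.1 0 = 0 → σ.1 1 = 1 → Commute (π σ) (g y) :=
    fun y hy σ h0 h1 => commute_of_closure π (g y) C.sg (fun s hs => by
      have := (commW_iff g _ _).1 (hy s hs)
      rwa [hπ] at this) (hsg' σ h0 h1)
  have hhN : g D.hw ^ Nat.card Fˣ = 1 := by
    obtain ⟨t, ht⟩ := Nat.modEq_zero_iff_dvd.1 hE.β₁
    rw [WordData.hw, map_conj, map_pow, ← map_pow, ← pow_mul, ht,
      show p * t * Nat.card Fˣ = p * Nat.card Fˣ * t by ring, pow_mul, hzord, one_pow, map_one]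
  let S : Seed m F P :=
    { ξ := ξ, hξ := hξ, π := π, h := g D.hw, hN := hhN
      stab_h := hstab D.hw fun s hs => hrel _ (by
        simp only [Choices.extra, List.mem_append, List.mem_map]
        exact Or.inl (Or.inl (Or.inl (Or.inr ⟨s, hs, rfl⟩)))) }
  have V : D.Val S (g D.uw) g := ⟨hπ, rfl, rfl⟩
  have hcm : Commute (S.φ 0 1 S.ξ) (S.φ 1 2 S.ξ) := by
    have := (commW_iff g (D.φw 0 1 1) (D.φw 1 2 1)).1 (hrel _ (by simp [Choices.extra]))
    rwa [D.val_φ_one V, D.val_φ_one V] at this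
  have htri : S.φ 0 1 S.ξ * S.φ 1 2 S.ξ = S.φ 0 2 S.ξ := by
    have := (eqW_iff g (D.φw 0 1 1 * D.φw 1 2 1) (D.φw 0 2 1)).1 (hrel _ (by simp [Choices.extra]))
    rwa [map_mul, D.val_φ_one V, D.val_φ_one V, D.val_φ_one V] at this
  have hT : TorusRels S := by
    cases hbb : C.withInv
    · exact torusRels_of_tri (hb hbb) hcm htri
    · have := (eqW_iff g (D.φw 1 0 1) (D.φw 0 1 1)⁻¹).1 (hrel _ (by simp [Choices.extra, hbb]))
      rw [map_inv, D.val_φ_one V, D.val_φ_one V] at this
      exact ⟨this, hcm, htri⟩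
  have hφ23 : S.φ 2 3 S.ξ = g WordData.zw ^ D.β := by
    rw [S.φ_eq pne23 (pairSwap m)⁻¹
      (by rw [Subgroup.coe_inv, Perm.inv_eq_iff_eq, pairSwap_two])
      (by rw [Subgroup.coe_inv, Perm.inv_eq_iff_eq, pairSwap_three]), S.φ₀_gen]
    show MulAut.conj (π (pairSwap m)⁻¹) (g D.hw) = _
    rw [WordData.hw, map_conj, map_pow, hπ, ← MulAut.mul_apply, ← map_mul, ← map_mul, inv_mul_cancel,
      map_one, map_one]
    rfl
  have hU : RootSeed S (g D.uw) :=
    { torus := hT
      stab_u := hstab D.uw fun s hs => hrel _ (by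
        simp only [Choices.extra, List.mem_append, List.mem_map]
        exact Or.inl (Or.inl (Or.inl (Or.inl (Or.inr ⟨s, hs, rfl⟩)))))
      ker₁ := by
        rw [hφ23, WordData.uw, map_pow]
        exact Commute.pow_pow_self _ _ _
      ker₂ := by
        have := (commW_iff g (D.φw 0 2 1 * D.φw 1 2 1) D.uw).1 (hrel _ (by simp [Choices.extra]))
        rwa [map_mul, D.val_φ_one V, D.val_φ_one V] at this }
  have hR : RootRels p hU :=
    { row := by
        have := (commW_iff g (D.Xw 0 1 0) (D.Xw 0 2 0)).1 (hrel _ (by simp [Choices.extra]))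
        rwa [D.val_X_one V hU, D.val_X_one V hU] at this
      col := by
        have := (commW_iff g (D.Xw 0 2 0) (D.Xw 1 2 0)).1 (hrel _ (by simp [Choices.extra]))
        rwa [D.val_X_one V hU, D.val_X_one V hU] at this
      disj := fun i j k q h₁ h₂ h₃ h₄ h₅ h₆ => by
        obtain ⟨d, hd, σ, hσ⟩ := hdj' ![i, j, k, q] (injective_vec4 h₁ h₂ h₃ h₄ h₅ h₆)
        have hi : σ.1 (d 0) = i := hσ 0
        have hj : σ.1 (d 1) = j := hσ 1
        have hk : σ.1 (d 2) = k := hσ 2
        have hq : σ.1 (d 3) = q := hσ 3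
        have h01 : d 0 ≠ d 1 := fun e => h₁ (by rw [← hi, ← hj, e])
        have h23 : d 2 ≠ d 3 := fun e => h₆ (by rw [← hk, ← hq, e])
        have := (commW_iff g (D.Xw (d 0) (d 1) 0) (D.Xw (d 2) (d 3) 0)).1 (hrel _ (by
          simp only [Choices.extra, List.mem_append, List.mem_map]
          exact Or.inl (Or.inl (Or.inr ⟨d, hd, rfl⟩))))
        rw [D.val_X_one V hU, D.val_X_one V hU] at this
        have hc : Commute (MulAut.conj (S.π σ) (hU.X (d 0) (d 1) 1))
            (MulAut.conj (S.π σ) (hU.X (d 2) (d 3) 1)) := this.map _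
        rwa [hU.conj_π_X σ h01, hU.conj_π_X σ h23, hi, hj, hk, hq] at hc
      step := fun i j k h₁ h₂ h₃ => by
        obtain ⟨d, hd, σ, hσ⟩ := hst' ![i, j, k] (injective_vec3 h₁ h₂ h₃)
        have hi : σ.1 (d 0) = i := hσ 0
        have hj : σ.1 (d 1) = j := hσ 1
        have hk : σ.1 (d 2) = k := hσ 2
        have h01 : d 0 ≠ d 1 := fun e => h₁ (by rw [← hi, ← hj, e])
        have h02 : d 0 ≠ d 2 := fun e => h₂ (by rw [← hi, ← hk, e])
        have h12 : d 1 ≠ d 2 := fun e => h₃ (by rw [← hj, ← hk, e])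
        have := (eqW_iff g _ _).1 (hrel (eqW (D.Xw (d 0) (d 1) 0 * D.Xw (d 1) (d 2) 0)
            (D.Xw (d 0) (d 2) 0 * D.Xw (d 1) (d 2) 0 * D.Xw (d 0) (d 1) 0)) (by
          simp only [Choices.extra, List.mem_append, List.mem_map]
          exact Or.inl (Or.inr ⟨d, hd, rfl⟩)))
        simp only [map_mul, D.val_X_one V hU] at this
        have := congrArg (MulAut.conj (S.π σ)) this
        rwa [map_mul, map_mul, map_mul, hU.conj_π_X σ h01, hU.conj_π_X σ h02, hU.conj_π_X σ h12,
          hi, hj, hk] at this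
      pu := by
        rw [hU.X_seed, WordData.uw, map_pow, ← pow_mul]
        obtain ⟨t, ht⟩ := Nat.modEq_zero_iff_dvd.1 hE.α₂
        rw [ht, show Nat.card Fˣ * t * p = p * Nat.card Fˣ * t by ring, pow_mul, hzord, one_pow]
      minp := by
        have := hrel (((List.range (C.deg + 1)).map fun i => D.Xw 0 1 i ^ C.cf i).prod) (by simp [Choices.extra])
        rw [map_list_prod, List.map_map, hdeg] at this
        refine Eq.trans (congrArg List.prod (List.map_congr_left fun i _ => ?_)) this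
        simp only [Function.comp_apply, map_pow, D.val_X V hU, hcf]
        rfl }
  refine bijective_eval (U := hU) hR ⟨hEπ, ?_, ?_⟩ C.c hc ?_ ?_
  · show E (g D.hw) = diagSL m ξ
    rw [WordData.hw, map_conj, map_pow, hπ, map_conj, map_pow, hEπ, hEz, z₀_pow,
      pow_eq_pow_of_modEq u0_pow_p hE.β₁, pow_eq_pow_of_modEq φ23_pow hE.β₂, pow_zero, one_mul,
      pow_one, show permSL (pairSwap m) = (seed0 (m := m) ξ hξ).π (pairSwap m) from rfl,
      Seed.conj_φ, pairSwap_two, pairSwap_three]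
    exact Seed.φ_one_zero _
  · rw [WordData.uw, map_pow, map_pow, hEz, z₀_pow, pow_eq_pow_of_modEq u0_pow_p hE.α₁,
      pow_eq_pow_of_modEq φ23_pow hE.α₂, pow_zero, mul_one, pow_one]
  · have hcw := (eqW_iff g (D.πw C.c)
      (FreeGroup.lift (fun a => D.Xw a.1.1.1 a.1.1.2 a.2) C.cword)).1 (hrel _ (by simp [Choices.extra]))
    rw [hπ] at hcw
    show π C.c ∈ _
    rw [hcw]
    generalize C.cword = x
    induction x using FreeGroup.induction_on with
    | C1 => simp [Subgroup.one_mem]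
    | of a =>
      rw [FreeGroup.lift_apply_of, D.val_X V hU]
      exact Subgroup.subset_closure ⟨a.1.1.1, a.1.1.2, a.1.2, _, rfl⟩
    | inv_of a ha => rw [map_inv, map_inv]; exact Subgroup.inv_mem _ ha
    | mul a b ha hb => rw [map_mul, map_mul]; exact Subgroup.mul_mem _ ha hb
  · rw [eq_top_iff, ← hPgen, Subgroup.closure_le]
    rintro x (hx | rfl)
    · exact Subgroup.subset_closure (Or.inl hx)
    · have hsum : g WordData.zw = g D.uw * g WordData.zw ^ D.β := by
        rw [WordData.uw, map_pow, ← pow_add, pow_eq_pow_of_modEq hzord hE.sum, pow_one]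
      have hh : g WordData.zw ^ D.β = MulAut.conj (π (pairSwap m)⁻¹) (g D.hw) := by
        rw [WordData.hw, map_conj, map_pow, hπ, ← MulAut.mul_apply, ← map_mul, ← map_mul,
          inv_mul_cancel, map_one, map_one]
        rfl
      have hm : ∀ σ, π σ ∈ Subgroup.closure (Set.range S.π ∪ {S.h, g D.uw}) := fun σ =>
        Subgroup.subset_closure (Or.inl ⟨σ, rfl⟩)
      rw [SetLike.mem_coe, hsum, hh, MulAut.conj_apply]
      exact Subgroup.mul_mem _ (Subgroup.subset_closure (Or.inr (Or.inr rfl)))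
        (Subgroup.mul_mem _ (Subgroup.mul_mem _ (hm _) (Subgroup.subset_closure (Or.inr (Or.inl rfl))))
          (Subgroup.inv_mem _ (hm _)))

omit [Fact p.Prime] [Algebra (ZMod p) F] in
/-- The special linear group on the generators of the alternating group and one element. -/
theorem sl_pres {r : ℕ} (v : Fin l → alternatingGroup (Fin (m + 4))) (hA : HasPres v r)
    (sg : List (alternatingGroup (Fin (m + 4))))
    (hsg : ∀ s ∈ sg, s.1 0 = 0 ∧ s.1 1 = 1)
    (hsg' : ∀ σ : alternatingGroup (Fin (m + 4)), σ.1 0 = 0 → σ.1 1 = 1 →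
      σ ∈ Subgroup.closure {x | x ∈ sg})
    (dj : List (Fin 4 → Fin (m + 4))) (hdj : ∀ d ∈ dj, Function.Injective d)
    (hdj' : ∀ f : Fin 4 → Fin (m + 4), Function.Injective f →
      ∃ d ∈ dj, ∃ σ : alternatingGroup (Fin (m + 4)), ∀ t, σ.1 (d t) = f t)
    (st : List (Fin 3 → Fin (m + 4))) (hst : ∀ d ∈ st, Function.Injective d)
    (hst' : ∀ f : Fin 3 → Fin (m + 4), Function.Injective f →
      ∃ d ∈ st, ∃ σ : alternatingGroup (Fin (m + 4)), ∀ t, σ.1 (d t) = f t)
    (b : Bool) (hb : b = false → 1 ≤ m) :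
    ∃ w : Fin (l + 1) → SpecialLinearGroup (Fin (m + 4)) F,
      HasPres w (r + 8 + 2 * sg.length + dj.length + st.length + (if b then 1 else 0)) := by
  classical
  obtain ⟨p, hchar⟩ := CharP.exists F
  haveI : Fact p.Prime := ⟨CharP.char_is_prime F p⟩
  letI : Algebra (ZMod p) F := ZMod.algebra F p
  obtain ⟨ξ, hξ⟩ := IsCyclic.exists_generator (α := Fˣ)
  obtain ⟨α, β, hE⟩ := exists_expo (F := F) p
  obtain ⟨rels, hcard, e, he⟩ := id hA
  have hgenA := closure_range_of_hasPres hA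
  let D : WordData m l := ⟨v, α, β⟩
  have hc : GKKL.cyc3 (0 : Fin (m + 4)) 1 2 ∈ alternatingGroup (Fin (m + 4)) :=
    Perm.mem_alternatingGroup.2
      (GKKL.cyc3_mem (T := Set.univ) pne01 pne12 trivial trivial trivial).1
  let T : ({a : Fin (m + 4) × Fin (m + 4) // a.1 ≠ a.2} × ℕ) → SpecialLinearGroup (Fin (m + 4)) F :=
    fun a => SpecialLinearGroup.transvection a.1.2 ((ξ : F) ^ a.2)
  have hT : ∀ A, ∃ x, FreeGroup.lift T x = A := fun A => by
    induction A using Cfsg.Agent.Linear.transvection_induction with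
    | htransvec i j h t =>
      rcases eq_or_ne t 0 with rfl | ht
      · exact ⟨1, (map_one _).trans (ext_val (by
          rw [val_one', transvection_val, Matrix.transvection_zero]))⟩
      obtain ⟨k, hk⟩ := (isOfFinOrder_of_finite ξ).mem_powers_iff_mem_zpowers.2 (hξ (Units.mk0 t ht))
      refine ⟨FreeGroup.of (⟨(i, j), h⟩, k), ?_⟩
      rw [FreeGroup.lift_apply_of]
      show SpecialLinearGroup.transvection h ((ξ : F) ^ k) = _
      rw [← Units.val_pow_eq_pow_val]
      exact congrArg _ (congrArg Units.val hk)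
    | hmul A B hA hB =>
      obtain ⟨x, rfl⟩ := hA
      obtain ⟨y, rfl⟩ := hB
      exact ⟨x * y, map_mul _ x y⟩
  obtain ⟨cword, hcword⟩ := hT (permSL ⟨_, hc⟩)
  let C : Choices m l F :=
    { p := p, cf := fun i => ((minpoly (ZMod p) (ξ : F)).coeff i).val
      deg := (minpoly (ZMod p) (ξ : F)).natDegree, sg := sg, dj := dj, st := st,
      withInv := b, N := Nat.card Fˣ, c := ⟨_, hc⟩, cword := cword }
  let R : Finset (FreeGroup (Fin (l + 1))) :=
    rels.image (FreeGroup.map Fin.castSucc) ∪ (C.extra D).toFinset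
  have hRcard : R.card ≤ r + 8 + 2 * sg.length + dj.length + st.length + (if b then 1 else 0) := by
    refine (Finset.card_union_le _ _).trans ?_
    have h1 : (C.extra D).toFinset.card ≤
        8 + 2 * sg.length + dj.length + st.length + (if b then 1 else 0) :=
      (List.toFinset_card_le _).trans (C.length_extra D).le
    have h2 := (Finset.card_image_le
      (f := FreeGroup.map (Fin.castSucc : Fin l → Fin (l + 1))) (s := rels)).trans hcard
    omega
  let w : Fin (l + 1) → SpecialLinearGroup (Fin (m + 4)) F :=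
    Fin.snoc (fun i => permSL (v i)) (z₀ ξ hξ)
  have hlift : ∀ x, e (PresentedGroup.mk _ x) = FreeGroup.lift v x := fun x =>
    DFunLike.congr_fun (FreeGroup.ext_hom (e.toMonoidHom.comp (PresentedGroup.mk _))
      (FreeGroup.lift v) fun i => by
        simp only [MonoidHom.comp_apply, FreeGroup.lift_apply_of]
        exact he i) x
  have htrue : ∀ ρ ∈ (↑R : Set (FreeGroup (Fin (l + 1)))), FreeGroup.lift w ρ = 1 := by
    intro ρ hρ
    simp only [R, Finset.coe_union, Set.mem_union, Finset.coe_image, Set.mem_image, Finset.mem_coe,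
      List.mem_toFinset] at hρ
    rcases hρ with ⟨x, hx, rfl⟩ | hρ
    · rw [show FreeGroup.lift w (FreeGroup.map Fin.castSucc x) = permSL (FreeGroup.lift v x) from
        DFunLike.congr_fun (FreeGroup.ext_hom ((FreeGroup.lift w).comp (FreeGroup.map Fin.castSucc))
          (permSL.comp (FreeGroup.lift v)) fun i => by simp [w]) x,
        ← hlift, PresentedGroup.one_of_mem hx, map_one, map_one]
    exact target_val (hξ := hξ) C D rfl rfl hE (fun _ => rfl) rfl hgenA hsg hdj hst hcword (FreeGroup.lift w)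
      (fun i => by simp [w, D]) (by simp [WordData.zw, w]) ρ hρ
  let mk := PresentedGroup.mk (↑R : Set (FreeGroup (Fin (l + 1))))
  have hπrel : ∀ x ∈ (↑rels : Set (FreeGroup (Fin l))),
      FreeGroup.lift (fun i => mk (FreeGroup.of (Fin.castSucc i))) x = 1 := by
    intro x hx
    rw [show FreeGroup.lift (fun i => mk (FreeGroup.of (Fin.castSucc i))) x =
        mk (FreeGroup.map Fin.castSucc x) from
      DFunLike.congr_fun (FreeGroup.ext_hom (FreeGroup.lift fun i => mk (FreeGroup.of (Fin.castSucc i)))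
        (mk.comp (FreeGroup.map Fin.castSucc)) fun i => by simp) x]
    exact PresentedGroup.one_of_mem (Finset.mem_coe.2
      (Finset.mem_union_left _ (Finset.mem_image_of_mem _ hx)))
  let π : alternatingGroup (Fin (m + 4)) →* PresentedGroup (↑R : Set (FreeGroup (Fin (l + 1)))) :=
    (PresentedGroup.toGroup hπrel).comp e.symm.toMonoidHom
  have hπv : ∀ i, mk (FreeGroup.of (Fin.castSucc i)) = π (v i) := fun i => by
    show mk (FreeGroup.of (Fin.castSucc i)) = PresentedGroup.toGroup hπrel (e.symm (v i))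
    rw [← he, MulEquiv.symm_apply_apply, PresentedGroup.toGroup.of]
  let E : PresentedGroup (↑R : Set (FreeGroup (Fin (l + 1)))) →* SpecialLinearGroup (Fin (m + 4)) F :=
    PresentedGroup.toGroup htrue
  have hEπ : E.comp π = permSL := MonoidHom.eq_of_eqOn_dense hgenA (by
    rintro _ ⟨i, rfl⟩
    show E (π (v i)) = permSL (v i)
    rw [← hπv i]
    refine (PresentedGroup.toGroup.of htrue).trans ?_
    simp [w])
  have hEz : E (mk WordData.zw) = z₀ ξ hξ := (PresentedGroup.toGroup.of htrue).trans (by simp [w])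
  have hbij : Function.Bijective E := recognise C D rfl rfl hE (fun _ => rfl) rfl hgenA hsg' hdj' hst'
    hb rfl π mk hπv
    (fun x hx => PresentedGroup.one_of_mem (Finset.mem_coe.2
      (Finset.mem_union_right _ (List.mem_toFinset.2 hx))))
    (by
      rw [eq_top_iff, ← PresentedGroup.closure_range_of, Subgroup.closure_le]
      rintro _ ⟨i, rfl⟩
      refine Fin.lastCases ?_ (fun j => ?_) i
      · exact Subgroup.subset_closure (Or.inr rfl)
      · exact Subgroup.subset_closure (Or.inl ⟨v j, (hπv j).symm⟩))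
    E (fun σ => DFunLike.congr_fun hEπ σ) hEz
  exact ⟨w, R, hRcard, MulEquiv.ofBijective E hbij, fun i => PresentedGroup.toGroup.of htrue⟩

end Cfsg.Agent.ShortPres
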