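import Cfsg.Agent.ShortPres.Torus

/-!
Root elements from one element centralised by a stabiliser and by the kernel of its weight.
-/

set_option autoImplicit false

namespace Cfsg.Agent.ShortPres

open Equiv

variable {m : ℕ} {F : Type*} [Field F] [Finite F] {P : Type*} [Group P]

/-- An element with the symmetries of a root element. -/
structure RootSeed (S : Seed m F P) (u : P) : Prop where
  torus : TorusRels S
  stab_u : ∀ σ : alternatingGroup (Fin (m + 4)), σ.1 0 = 0 → σ.1 1 = 1 → Commute (S.π σ) u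
  ker₁ : Commute (S.φ 2 3 S.ξ) u
  ker₂ : Commute (S.φ 0 2 S.ξ * S.φ 1 2 S.ξ) u

namespace RootSeed

variable {S : Seed m F P} {u : P} (U : RootSeed S u)
include U

theorem ker23 (a : Fˣ) : Commute (S.φ 2 3 a) u := by
  obtain ⟨k, rfl⟩ := Subgroup.mem_zpowers_iff.1 (S.hξ a)
  rw [map_zpow]
  exact U.ker₁.zpow_left k

theorem ker_third (i : Fin (m + 4)) (h0 : i ≠ 0) (h1 : i ≠ 1) (h2 : i ≠ 2) (a : Fˣ) :
    Commute (S.φ i 2 a) u := by
  obtain ⟨σ, h | h⟩ := exists_even_or_odd ![0, 1, 2, 3] ![0, 1, i, 2]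
    (injective_vec4 pne01 pne02 pne03 pne12 pne13 pne23)
    (injective_vec4 pne01 h0.symm pne02 h1.symm pne12 h2) (swap 2 3) (Perm.sign_swap pne23)
  all_goals
    have e0 := h 0; have e1 := h 1; have e2 := h 2; have e3 := h 3
    simp only [Matrix.cons_val_zero, Matrix.cons_val_one, Matrix.cons_val_two, Matrix.cons_val_three,
      Matrix.head_cons, Matrix.tail_cons, swap_apply_left, swap_apply_right,
      swap_apply_of_ne_of_ne pne02 pne03, swap_apply_of_ne_of_ne pne12 pne13] at e0 e1 e2 e3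
    have hu : MulAut.conj (S.π σ) u = u := by
      rw [MulAut.conj_apply, (U.stab_u σ e0 e1).eq, mul_inv_cancel_right]
    have hc : Commute (MulAut.conj (S.π σ) (S.φ 2 3 a)) (MulAut.conj (S.π σ) u) := (U.ker23 a).map _
    rw [hu, S.conj_φ, e2, e3] at hc
  · exact hc
  · rw [U.torus.inv_all 2 i]; exact hc.inv_left

theorem ker_two (a : Fˣ) : Commute (S.φ 0 2 a * S.φ 1 2 a) u := by
  obtain ⟨k, rfl⟩ := Subgroup.mem_zpowers_iff.1 (S.hξ a)
  rw [map_zpow, map_zpow, ← (U.torus.comm_all 0 2 1 2 S.ξ S.ξ).mul_zpow]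
  exact U.ker₂.zpow_left k

theorem ker_τ {f : Fin (m + 4) → Fˣ} (hf : ∏ i, f i = 1) (h01 : f 0 = f 1) :
    Commute (U.torus.τ f) u := by
  classical
  let a := f 0
  let A : Fin (m + 4) → Fˣ :=
    Pi.mulSingle 0 a / Pi.mulSingle 2 a * (Pi.mulSingle 1 a / Pi.mulSingle 2 a)
  have hA : Commute (U.torus.τ A) u := by
    rw [show U.torus.τ A = S.φ 0 2 a * S.φ 1 2 a by
      simp only [A, map_mul, U.torus.τ_pair]]
    exact U.ker_two a
  let T : Subgroup (Fin (m + 4) → Fˣ) := (Subgroup.centralizer {u}).comap U.torus.τ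
  have hmem : ∀ g, g ∈ T ↔ Commute (U.torus.τ g) u := fun g => by
    simp [T, Subgroup.mem_comap, Subgroup.mem_centralizer_iff, Commute, SemiconjBy, eq_comm]
  have hg : ∀ i, i ≠ 0 → i ≠ 1 → (Pi.mulSingle i ((f / A) i) / Pi.mulSingle 2 ((f / A) i) :
      Fin (m + 4) → Fˣ) ∈ T := fun i h0 h1 => by
    rw [hmem, U.torus.τ_pair]
    rcases eq_or_ne i 2 with rfl | h2
    · rw [S.φ_diag]; exact Commute.one_left _
    · exact U.ker_third i h0 h1 h2 _
  have hA0 : A 0 = a := by simp [A, pne01, pne02]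
  have hA1 : A 1 = a := by simp [A, pne01.symm, pne12]
  have hprod : (∏ i, (f / A) i) = 1 := by
    simp only [A, Pi.div_apply, Pi.mul_apply, Finset.prod_div_distrib, Finset.prod_mul_distrib,
      Fintype.prod_pi_mulSingle', hf, div_self', mul_one, div_one]
  have hmem2 : ∀ i, (Pi.mulSingle i ((f / A) i) / Pi.mulSingle 2 ((f / A) i) :
      Fin (m + 4) → Fˣ) ∈ T := fun i => by
    rcases eq_or_ne i 0 with rfl | h0
    · simp [hA0, a, T.one_mem]
    rcases eq_or_ne i 1 with rfl | h1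
    · simp [hA1, a, h01, T.one_mem]
    exact hg i h0 h1
  have h := T.prod_mem (t := Finset.univ) fun i _ => hmem2 i
  rw [Finset.prod_div_distrib, Finset.univ_prod_mulSingle,
    show (∏ i, (Pi.mulSingle 2 ((f / A) i) : Fin (m + 4) → Fˣ)) =
      MonoidHom.mulSingle (fun _ : Fin (m + 4) => Fˣ) 2 (∏ i, (f / A) i) from
      (map_prod (MonoidHom.mulSingle (fun _ : Fin (m + 4) => Fˣ) 2) (f / A) Finset.univ).symm,
    hprod, map_one, div_one, hmem] at h
  have h2 := hA.mul_left h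
  rwa [← map_mul, mul_div_cancel] at h2

omit U in
/-- The standard element of determinant one with ratio `s` on the first two points. -/
def std02 (s : Fˣ) : Fin (m + 4) → Fˣ := Pi.mulSingle 0 s / Pi.mulSingle 2 s

omit U in
theorem prod_std02 (s : Fˣ) : ∏ i, (std02 (m := m) s) i = 1 := by
  simp [std02, Finset.prod_div_distrib, Fintype.prod_pi_mulSingle']

omit U in
theorem std02_zero (s : Fˣ) : std02 (m := m) s 0 = s := by simp [std02, pne02]

omit U in
theorem std02_one (s : Fˣ) : std02 (m := m) s 1 = 1 := by simp [std02, pne01.symm, pne12]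

/-- The root elements. -/
noncomputable def X (i j : Fin (m + 4)) (s : Fˣ) : P :=
  if hij : i = j then 1 else MulAut.conj (S.π (Seed.std hij)) (MulAut.conj (U.torus.τ (std02 s)) u)

/-- Every way of reaching a root element gives the same value. -/
theorem X_eq {i j : Fin (m + 4)} (hij : i ≠ j) (σ : alternatingGroup (Fin (m + 4))) (h0 : σ.1 0 = i)
    (h1 : σ.1 1 = j) {f : Fin (m + 4) → Fˣ} (hf : ∏ x, f x = 1) :
    MulAut.conj (S.π σ) (MulAut.conj (U.torus.τ f) u) = U.X i j (f 0 / f 1) := by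
  set g := std02 (m := m) (f 0 / f 1)
  set ρ : alternatingGroup (Fin (m + 4)) := (Seed.std hij)⁻¹ * σ
  have hρ : ρ.1 0 = 0 ∧ ρ.1 1 = 1 := by
    constructor <;> simp only [ρ, Subgroup.coe_mul, Perm.mul_apply, Subgroup.coe_inv,
      Perm.inv_eq_iff_eq, h0, h1, Seed.std_zero, Seed.std_one]
  have hρu : MulAut.conj (S.π ρ) u = u := by
    rw [MulAut.conj_apply, (U.stab_u ρ hρ.1 hρ.2).eq, mul_inv_cancel_right]
  set f' : Fin (m + 4) → Fˣ := fun x => f (ρ.1⁻¹ x)
  have hinv : ∀ {x}, ρ.1 x = x → ρ.1⁻¹ x = x := fun h => by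
    rw [Perm.inv_eq_iff_eq, h]
  have hf' : ∏ x, f' x = 1 := (Equiv.prod_comp ρ.1⁻¹ f).trans hf
  have hk : MulAut.conj (U.torus.τ (g⁻¹ * f')) u = u := by
    rw [MulAut.conj_apply, (U.ker_τ ?_ ?_).eq, mul_inv_cancel_right]
    · simp [g, Finset.prod_mul_distrib, hf', prod_std02]
    · have e0 := hinv hρ.1; have e1 := hinv hρ.2
      show (g 0)⁻¹ * f (ρ.1⁻¹ 0) = (g 1)⁻¹ * f (ρ.1⁻¹ 1)
      rw [e0, e1]
      simp [g, std02_zero, std02_one]
  rw [X, dif_neg hij, show σ = Seed.std hij * ρ by simp [ρ], map_mul, map_mul, MulAut.mul_apply]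
  refine congrArg _ ?_
  rw [← MulAut.mul_apply, ← map_mul]
  have hc := U.torus.conj_τ ρ hf
  rw [MulAut.conj_apply, mul_inv_eq_iff_eq_mul] at hc
  rw [hc, map_mul, MulAut.mul_apply, hρu]
  conv_lhs => rw [show (fun x => f (ρ.1⁻¹ x)) = g * (g⁻¹ * f') by
    rw [mul_inv_cancel_left], map_mul, map_mul, MulAut.mul_apply, hk]

theorem X_seed : U.X 0 1 1 = u := by
  have h := U.X_eq pne01 1 rfl rfl (f := 1) (by simp)
  simp at h
  exact h.symm

theorem conj_π_X (ρ : alternatingGroup (Fin (m + 4))) {i j : Fin (m + 4)} (hij : i ≠ j) (s : Fˣ) :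
    MulAut.conj (S.π ρ) (U.X i j s) = U.X (ρ.1 i) (ρ.1 j) s := by
  conv_lhs => rw [X, dif_neg hij, ← MulAut.mul_apply, ← map_mul, ← map_mul]
  rw [U.X_eq (ρ.1.injective.ne hij) (ρ * Seed.std hij) (by simp [Seed.std_zero])
    (by simp [Seed.std_one]) (prod_std02 s), std02_zero, std02_one, div_one]

theorem conj_τ_X {g : Fin (m + 4) → Fˣ} (hg : ∏ x, g x = 1) {i j : Fin (m + 4)} (hij : i ≠ j)
    (s : Fˣ) : MulAut.conj (U.torus.τ g) (U.X i j s) = U.X i j (g i / g j * s) := by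
  set σ := Seed.std hij
  set g' : Fin (m + 4) → Fˣ := fun x => g (σ.1 x)
  have hg' : ∏ x, g' x = 1 := (Equiv.prod_comp σ.1 g).trans hg
  have h : U.torus.τ g = MulAut.conj (S.π σ) (U.torus.τ g') := by
    rw [U.torus.conj_τ σ hg']
    simp [g']
  conv_lhs => rw [X, dif_neg hij]
  rw [show Seed.std hij = σ from rfl, h, ← MulAut.mul_apply, ← map_mul,
    show MulAut.conj (S.π σ) (U.torus.τ g') * S.π σ = S.π σ * U.torus.τ g' by
      rw [MulAut.conj_apply, inv_mul_cancel_right],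
    map_mul, MulAut.mul_apply]
  conv_lhs => arg 2; rw [← MulAut.mul_apply, ← map_mul, ← map_mul]
  rw [U.X_eq hij σ (Seed.std_zero hij) (Seed.std_one hij)]
  · simp [g', σ, Seed.std_zero, Seed.std_one, std02_zero, std02_one, div_mul_eq_mul_div]
  · simp [Finset.prod_mul_distrib, hg', prod_std02]

end RootSeed

end Cfsg.Agent.ShortPres
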