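import Cfsg.Agent.ShortPres.Span
import Cfsg.Agent.ShortPres.Roots
import Cfsg.Agent.Spec.StPres.Final

/-!
The Steinberg relations from their values at one.
-/

set_option autoImplicit false

namespace Cfsg.Agent.ShortPres

open Equiv

variable {m : ℕ} {F : Type*} [Field F] [Finite F] {P : Type*} [Group P]

/-- The relations between root elements at the value one. -/
structure RootRels (p : ℕ) [Fact p.Prime] [Algebra (ZMod p) F] {S : Seed m F P} {u : P}
    (U : RootSeed S u) : Prop where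
  row : Commute (U.X 0 1 1) (U.X 0 2 1)
  col : Commute (U.X 0 2 1) (U.X 1 2 1)
  disj : ∀ i j k l, i ≠ j → i ≠ k → i ≠ l → j ≠ k → j ≠ l → k ≠ l →
    Commute (U.X i j 1) (U.X k l 1)
  step : ∀ i j k, i ≠ j → i ≠ k → j ≠ k →
    U.X i j 1 * U.X j k 1 = U.X i k 1 * U.X j k 1 * U.X i j 1
  pu : U.X 0 1 1 ^ p = 1
  minp : ((List.range ((minpoly (ZMod p) (S.ξ : F)).natDegree + 1)).map
    fun i => U.X 0 1 (S.ξ ^ i) ^ ((minpoly (ZMod p) (S.ξ : F)).coeff i).val).prod = 1

namespace RootRels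

variable {p : ℕ} [Fact p.Prime] [Algebra (ZMod p) F] {S : Seed m F P} {u : P} {U : RootSeed S u}
  (R : RootRels p U)

omit [Fact p.Prime] [Algebra (ZMod p) F] in
theorem exists_four {i j k : Fin (m + 4)} : ∃ l, i ≠ l ∧ j ≠ l ∧ k ≠ l := by
  obtain ⟨l, hl⟩ := exists_other ![i, j, k] (by omega)
  exact ⟨l, hl 0, hl 1, hl 2⟩

omit [Fact p.Prime] [Algebra (ZMod p) F] in
/-- An element of determinant one with three prescribed entries. -/
theorem exists_entries {i j k l : Fin (m + 4)} (h₁ : i ≠ j) (h₂ : i ≠ k) (h₃ : i ≠ l) (h₄ : j ≠ k)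
    (h₅ : j ≠ l) (h₆ : k ≠ l) (a b c : Fˣ) :
    ∃ f : Fin (m + 4) → Fˣ, ∏ x, f x = 1 ∧ f i = a ∧ f j = b ∧ f k = c ∧ f l = (a * b * c)⁻¹ :=
  ⟨Pi.mulSingle i a * Pi.mulSingle j b * Pi.mulSingle k c * Pi.mulSingle l (a * b * c)⁻¹,
    by simp [Finset.prod_mul_distrib, Fintype.prod_pi_mulSingle'],
    by simp [h₁, h₂, h₃], by simp [h₁.symm, h₄, h₅], by simp [h₂.symm, h₄.symm, h₆],
    by simp [h₃.symm, h₅.symm, h₆.symm]⟩

include R

theorem row_one {i j k : Fin (m + 4)} (hij : i ≠ j) (hik : i ≠ k) (hjk : j ≠ k) :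
    Commute (U.X i j 1) (U.X i k 1) := by
  obtain ⟨σ, h | h⟩ := exists_even_or_odd ![0, 1, 2] ![i, j, k] (injective_vec3 pne01 pne02 pne12)
    (injective_vec3 hij hik hjk) (swap 1 2) (Perm.sign_swap pne12)
  all_goals
    have e0 := h 0; have e1 := h 1; have e2 := h 2
    simp only [Matrix.cons_val_zero, Matrix.cons_val_one, Matrix.cons_val_two,
      Matrix.head_cons, Matrix.tail_cons, swap_apply_left, swap_apply_right,
      swap_apply_of_ne_of_ne pne01 pne02] at e0 e1 e2
    have hc : Commute (MulAut.conj (S.π σ) (U.X 0 1 1)) (MulAut.conj (S.π σ) (U.X 0 2 1)) := R.row.map _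
    rw [U.conj_π_X σ pne01, U.conj_π_X σ pne02, e0, e1, e2] at hc
  · exact hc
  · exact hc.symm

theorem col_one {i j k : Fin (m + 4)} (hij : i ≠ j) (hik : i ≠ k) (hjk : j ≠ k) :
    Commute (U.X i k 1) (U.X j k 1) := by
  obtain ⟨σ, h | h⟩ := exists_even_or_odd ![0, 1, 2] ![i, j, k] (injective_vec3 pne01 pne02 pne12)
    (injective_vec3 hij hik hjk) (swap 0 1) (Perm.sign_swap pne01)
  all_goals
    have e0 := h 0; have e1 := h 1; have e2 := h 2
    simp only [Matrix.cons_val_zero, Matrix.cons_val_one, Matrix.cons_val_two,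
      Matrix.head_cons, Matrix.tail_cons, swap_apply_left, swap_apply_right,
      swap_apply_of_ne_of_ne pne02.symm pne12.symm] at e0 e1 e2
    have hc : Commute (MulAut.conj (S.π σ) (U.X 0 2 1)) (MulAut.conj (S.π σ) (U.X 1 2 1)) := R.col.map _
    rw [U.conj_π_X σ pne02, U.conj_π_X σ pne12, e0, e1, e2] at hc
  · exact hc
  · exact hc.symm

theorem row_all {i j k : Fin (m + 4)} (hij : i ≠ j) (hik : i ≠ k) (hjk : j ≠ k) (a b : Fˣ) :
    Commute (U.X i j a) (U.X i k b) := by
  obtain ⟨l, hil, hjl, hkl⟩ := exists_four (i := i) (j := j) (k := k)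
  obtain ⟨f, hf, hi, hj, hk, -⟩ := exists_entries (F := F) hij hik hil hjk hjl hkl 1 a⁻¹ b⁻¹
  have hc : Commute (MulAut.conj (U.torus.τ f) (U.X i j 1)) (MulAut.conj (U.torus.τ f) (U.X i k 1)) :=
    (R.row_one hij hik hjk).map _
  rwa [U.conj_τ_X hf hij, U.conj_τ_X hf hik, hi, hj, hk, one_div, inv_inv, one_div, inv_inv,
    mul_one, mul_one] at hc

theorem col_all {i j k : Fin (m + 4)} (hij : i ≠ j) (hik : i ≠ k) (hjk : j ≠ k) (a b : Fˣ) :
    Commute (U.X i k a) (U.X j k b) := by
  obtain ⟨l, hil, hjl, hkl⟩ := exists_four (i := i) (j := j) (k := k)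
  obtain ⟨f, hf, hi, hj, hk, -⟩ := exists_entries (F := F) hij hik hil hjk hjl hkl a b 1
  have hc : Commute (MulAut.conj (U.torus.τ f) (U.X i k 1)) (MulAut.conj (U.torus.τ f) (U.X j k 1)) :=
    (R.col_one hij hik hjk).map _
  rwa [U.conj_τ_X hf hik, U.conj_τ_X hf hjk, hi, hj, hk, div_one, div_one, mul_one, mul_one] at hc

theorem step_all {i j k : Fin (m + 4)} (hij : i ≠ j) (hik : i ≠ k) (hjk : j ≠ k) (a b : Fˣ) :
    U.X i j a * U.X j k b = U.X i k (a * b) * U.X j k b * U.X i j a := by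
  obtain ⟨l, hil, hjl, hkl⟩ := exists_four (i := i) (j := j) (k := k)
  obtain ⟨f, hf, hi, hj, hk, -⟩ := exists_entries (F := F) hij hik hil hjk hjl hkl a 1 b⁻¹
  have hc := congrArg (MulAut.conj (U.torus.τ f)) (R.step i j k hij hik hjk)
  rw [map_mul, map_mul, map_mul, U.conj_τ_X hf hij, U.conj_τ_X hf hik, U.conj_τ_X hf hjk, hi, hj, hk,
    div_one, div_inv_eq_mul, div_inv_eq_mul] at hc
  simpa using hc

theorem self_comm {i j : Fin (m + 4)} (hij : i ≠ j) (s t : Fˣ) : Commute (U.X i j s) (U.X i j t) := by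
  obtain ⟨l, hil, hjl, -⟩ := exists_four (i := i) (j := j) (k := j)
  have e : U.X i l t * U.X l j 1 * (U.X i l t)⁻¹ * (U.X l j 1)⁻¹ = U.X i j t := by
    rw [R.step_all hil hij hjl.symm t 1, mul_one]
    group
  rw [← e]
  have h1 : Commute (U.X i j s) (U.X i l t) := R.row_all hij hil hjl s t
  have h2 : Commute (U.X i j s) (U.X l j 1) := R.col_all hil hij hjl.symm s 1
  exact ((h1.mul_right h2).mul_right h1.inv_right).mul_right h2.inv_right

theorem exists_Y : ∃ Y : Fin (m + 4) → Fin (m + 4) → F → P,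
    (∀ i j, i ≠ j → ∀ a b, Y i j a * Y i j b = Y i j (a + b)) ∧
    ∀ i j, i ≠ j → ∀ s : Fˣ, Y i j s = U.X i j s := by
  classical
  obtain ⟨Y, hadd, hY⟩ := exists_additive p S.hξ (fun s => U.X 0 1 s)
    (U.torus.τ (RootSeed.std02 S.ξ)) (fun s => by
      rw [← MulAut.conj_apply, U.conj_τ_X (RootSeed.prod_std02 _) pne01, RootSeed.std02_zero,
        RootSeed.std02_one, div_one])
    (fun s t => R.self_comm pne01 s t) R.pu R.minp
  refine ⟨fun i j a => if h : i = j then 1 else MulAut.conj (S.π (Seed.std h)) (Y a),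
    fun i j h a b => ?_, fun i j h s => ?_⟩
  · simp only [dif_neg h]
    rw [← map_mul, hadd]
  · simp only [dif_neg h]
    rw [hY, U.conj_π_X _ pne01, Seed.std_zero, Seed.std_one]

/-- The root elements form a Steinberg system. -/
theorem exists_sys : ∃ Y : Fin (m + 4) → Fin (m + 4) → F → P,
    Spec.StPres.Sys F (m + 4) Y ∧ ∀ i j, i ≠ j → ∀ s : Fˣ, Y i j s = U.X i j s := by
  obtain ⟨Y, hadd, hY⟩ := R.exists_Y
  have h0 : ∀ i j, i ≠ j → Y i j 0 = 1 := fun i j h => by
    have := hadd i j h 0 0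
    rwa [add_zero, mul_eq_left] at this
  have hlift : ∀ {i j k l}, i ≠ j → k ≠ l → (∀ a b : Fˣ, Commute (U.X i j a) (U.X k l b)) →
      ∀ a b, Commute (Y i j a) (Y k l b) := fun {i j k l} hij hkl h a b => by
    rcases eq_or_ne a 0 with rfl | ha
    · rw [h0 i j hij]; exact Commute.one_left _
    rcases eq_or_ne b 0 with rfl | hb
    · rw [h0 k l hkl]; exact Commute.one_right _
    have := h (Units.mk0 a ha) (Units.mk0 b hb)
    rwa [← hY i j hij, ← hY k l hkl, Units.val_mk0, Units.val_mk0] at this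
  refine ⟨Y, ⟨hadd, fun i j k l hij hkl hil hjk a b => ?_, fun i j l hij hjl hil a b => ?_⟩, hY⟩
  · by_cases hik : i = k
    · subst hik
      by_cases hjl : j = l
      · subst hjl
        rw [hadd i j hij, hadd i j hij, add_comm]
      · exact (hlift hij hkl (fun a b => R.row_all hij hkl hjl a b) a b).eq
    by_cases hjl : j = l
    · subst hjl
      exact (hlift hij hkl (fun a b => R.col_all hik hij hkl a b) a b).eq
    refine (hlift hij hkl (fun a b => ?_) a b).eq
    -- the disjoint case: scalars with square ratio, then additivity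
    have hsq : ∀ c d : Fˣ, Commute (U.X i j (c ^ 2 * d)) (U.X k l d) := fun c d => by
      obtain ⟨f, hf, hi, hj, hk, hl⟩ := exists_entries (F := F) hij hik hil hjk hjl hkl (c * d) c⁻¹ 1
      have hc : Commute (MulAut.conj (U.torus.τ f) (U.X i j 1)) (MulAut.conj (U.torus.τ f) (U.X k l 1)) :=
        (R.disj i j k l hij hik hil hjk hjl hkl).map _
      rw [U.conj_τ_X hf hij, U.conj_τ_X hf hkl, hi, hj, hk, hl] at hc
      convert hc using 2
      · rw [mul_one, div_inv_eq_mul, mul_right_comm, ← sq]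
      · simp [mul_right_comm c d]
    let T : AddSubgroup F :=
      { carrier := {r | Commute (Y i j (r * b)) (U.X k l b)}
        zero_mem' := by simp [h0 i j hij]
        add_mem' := fun {r s} hr hs => by
          show Commute (Y i j ((r + s) * b)) _
          rw [add_mul, ← hadd i j hij]
          exact hr.mul_left hs
        neg_mem' := fun {r} hr => by
          show Commute (Y i j (-r * b)) _
          rw [neg_mul, eq_inv_of_mul_eq_one_left (show Y i j (-(r * b)) * Y i j (r * b) = 1 by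
            rw [hadd i j hij, neg_add_cancel, h0 i j hij])]
          exact hr.inv_left }
    have hT : ((a : F) / b) ∈ T := by
      rw [addSubgroup_eq_top_of_squares T fun c => by
        show Commute (Y i j (((c ^ 2 : Fˣ) : F) * b)) _
        rw [← Units.val_mul, hY i j hij]
        exact hsq c b]
      exact AddSubgroup.mem_top _
    have := (show Commute (Y i j ((a : F) / b * b)) (U.X k l b) from hT)
    rwa [div_mul_cancel₀ _ b.ne_zero, hY i j hij] at this
  · rcases eq_or_ne a 0 with rfl | ha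
    · simp [h0 i j hij, h0 i l hil]
    rcases eq_or_ne b 0 with rfl | hb
    · simp [h0 j l hjl, h0 i l hil]
    have := R.step_all hij hil hjl (Units.mk0 a ha) (Units.mk0 b hb)
    rwa [← hY i j hij, ← hY i l hil, ← hY j l hjl, Units.val_mul, Units.val_mk0, Units.val_mk0] at this

end RootRels

end Cfsg.Agent.ShortPres
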