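import Mathlib

/-!
Additive subgroups of a finite field containing all squares; additive extension of a multiplicatively
indexed family in a group satisfying the minimal polynomial relation.
-/

set_option autoImplicit false

namespace Cfsg.Agent.ShortPres

variable {F : Type*} [Field F] [Finite F]

/-- An additive subgroup containing all squares of units is everything. -/
theorem addSubgroup_eq_top_of_squares (S : AddSubgroup F) (h : ∀ s : Fˣ, ((s ^ 2 : Fˣ) : F) ∈ S) :
    S = ⊤ := by
  classical
  haveI := Fintype.ofFinite F
  let M : Submonoid F :=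
    { carrier := {a | ∃ s : F, a = s ^ 2}
      one_mem' := ⟨1, (one_pow 2).symm⟩
      mul_mem' := fun {a b} ⟨s, hs⟩ ⟨t, ht⟩ => ⟨s * t, by rw [hs, ht, mul_pow]⟩ }
  let R := Subring.closure (M : Set F)
  have hRS : (R : Set F) ⊆ S := fun a ha => by
    have h1 : a ∈ AddSubgroup.closure (M : Set F) := by
      have := Subring.mem_closure_iff.1 ha
      rwa [M.closure_eq] at this
    refine (AddSubgroup.closure_le S).2 ?_ h1
    rintro _ ⟨s, rfl⟩
    rcases eq_or_ne s 0 with rfl | hs
    · simp
    · simpa using h (Units.mk0 s hs)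
  let K : Subfield F :=
    { R with
      inv_mem' := fun a ha => by
        rcases eq_or_ne a 0 with rfl | h0
        · simpa using R.zero_mem
        · rw [show a⁻¹ = a ^ (Fintype.card F - 2) from ?_]
          · exact R.pow_mem ha _
          · refine inv_eq_of_mul_eq_one_right ?_
            rw [← pow_succ', show Fintype.card F - 2 + 1 = Fintype.card F - 1 from ?_]
            · exact FiniteField.pow_card_sub_one_eq_one a h0
            · have := Fintype.one_lt_card (α := F); omega }
  have hK : ∀ a : F, a ^ 2 ∈ K := fun a => Subring.subset_closure ⟨a, rfl⟩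
  have htop : ∀ a : F, a ∈ K := by
    by_contra hne
    push Not at hne
    obtain ⟨a, ha⟩ := hne
    have hc : Fintype.card F = Fintype.card K ^ Module.finrank K F :=
      Module.card_eq_pow_finrank
    have hr : 2 ≤ Module.finrank K F := by
      by_contra hlt
      have h1 : Module.finrank K F = 1 := by
        have := Module.finrank_pos (R := K) (M := F)
        omega
      rw [h1, pow_one] at hc
      have hs : Function.Surjective (Subtype.val : K → F) :=
        ((Fintype.bijective_iff_injective_and_card _).2 ⟨Subtype.val_injective, hc.symm⟩).2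
      obtain ⟨b, rfl⟩ := hs a
      exact ha b.2
    have h2 : Fintype.card F ≤ 2 * Fintype.card K := by
      calc Fintype.card F = (Finset.univ : Finset F).card := rfl
        _ ≤ 2 * (Finset.univ.image fun b : F => (⟨b ^ 2, hK b⟩ : K)).card := by
            refine Finset.card_le_mul_card_image _ _ fun c _ => ?_
            have hsub : (Finset.univ.filter fun b : F => (⟨b ^ 2, hK b⟩ : K) = c) ⊆
                (Polynomial.nthRoots 2 (c : F)).toFinset := fun b hb => by
              rw [Finset.mem_filter] at hb
              rw [Multiset.mem_toFinset, Polynomial.mem_nthRoots zero_lt_two]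
              exact congrArg Subtype.val hb.2
            exact (Finset.card_le_card hsub).trans
              ((Multiset.toFinset_card_le _).trans (Polynomial.card_nthRoots 2 _))
        _ ≤ 2 * Fintype.card K := Nat.mul_le_mul_left 2 (Finset.card_le_univ _)
    have h3 : 2 ≤ Fintype.card K := Fintype.one_lt_card
    have h4 : Fintype.card K ^ 2 ≤ Fintype.card F := hc ▸ Nat.pow_le_pow_right (by omega) hr
    have hKF : Fintype.card K = 2 := by nlinarith
    have h5 : Fintype.card F ≤ 4 := by omega
    -- squaring is bijective in a field of order four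
    have h6 : Fintype.card F = 4 := by nlinarith
    have hinj : Function.Injective fun b : F => (⟨b ^ 2, hK b⟩ : K) := fun b c e => by
      have e2 : b ^ 2 = c ^ 2 := congrArg Subtype.val e
      have := FiniteField.pow_card b
      have := FiniteField.pow_card c
      calc b = b ^ 4 := by rw [← h6, FiniteField.pow_card]
        _ = c ^ 4 := by rw [show 4 = 2 * 2 from rfl, pow_mul, pow_mul, e2]
        _ = c := by rw [← h6, FiniteField.pow_card]
    have := Fintype.card_le_of_injective _ hinj
    omega
  rw [eq_top_iff]
  exact fun a _ => hRS (htop a)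

/-- A family indexed by the units, multiplied by a fixed endomorphism and satisfying the minimal
polynomial relation, extends additively to the field. -/
theorem exists_additive (p : ℕ) [Fact p.Prime] [Algebra (ZMod p) F] {P : Type*} [Group P]
    {ξ : Fˣ} (hξ : ∀ u : Fˣ, u ∈ Subgroup.zpowers ξ) (X : Fˣ → P) (g : P)
    (hg : ∀ s, g * X s * g⁻¹ = X (ξ * s)) (hcomm : ∀ s t, Commute (X s) (X t))
    (hp : X 1 ^ p = 1)
    (hf : ((List.range ((minpoly (ZMod p) (ξ : F)).natDegree + 1)).map
      fun i => X (ξ ^ i) ^ ((minpoly (ZMod p) (ξ : F)).coeff i).val).prod = 1) :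
    ∃ Y : F → P, (∀ a b, Y a * Y b = Y (a + b)) ∧ ∀ s : Fˣ, Y s = X s := by
  classical
  let U : Subgroup P := Subgroup.closure (Set.range X)
  haveI hU : IsMulCommutative U := Subgroup.isMulCommutative_closure (by
    rintro _ ⟨s, rfl⟩ _ ⟨t, rfl⟩; exact hcomm s t)
  let Xu : Fˣ → U := fun s => ⟨X s, Subgroup.subset_closure ⟨s, rfl⟩⟩
  letI : CommGroup U := { (inferInstance : Group U) with mul_comm := fun a b => mul_comm' a b }
  have hpow : ∀ m : ℕ, X (ξ ^ m) ^ p = 1 := fun m => by
    induction m with
    | zero => rw [pow_zero]; exact hp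
    | succ m ih => rw [pow_succ', ← hg, conj_pow, ih, mul_one, mul_inv_cancel]
  have hpU : ∀ a : Additive U, p • a = 0 := by
    intro a
    have hker : U ≤ ((powMonoidHom p : U →* U).ker).map U.subtype := by
      rw [Subgroup.closure_le]
      rintro _ ⟨s, rfl⟩
      refine ⟨Xu s, ?_, rfl⟩
      obtain ⟨m, rfl⟩ := (isOfFinOrder_of_finite ξ).mem_powers_iff_mem_zpowers.2 (hξ s)
      exact Subtype.ext (hpow m)
    obtain ⟨b, hb, e⟩ := hker a.toMul.2
    have : b = a.toMul := Subtype.ext e
    subst this
    exact congrArg Additive.ofMul hb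
  letI : Module (ZMod p) (Additive U) := AddCommGroup.zmodModule hpU
  let v : ℕ → Additive U := fun m => Additive.ofMul (Xu (ξ ^ m))
  obtain ⟨θ, hθ⟩ : ∃ θ : Polynomial (ZMod p) →+ Additive U,
      ∀ m c, θ (Polynomial.monomial m c) = c • v m := by
    refine ⟨{ toFun := fun q => q.sum fun m c => c • v m
              map_zero' := Polynomial.sum_zero_index _
              map_add' := fun a b => Polynomial.sum_add_index a b _ (fun i => zero_smul _ _)
                (fun i c d => add_smul c d _) }, fun m c => ?_⟩
    exact Polynomial.sum_monomial_index c (fun m c => c • v m) (zero_smul _ _)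
  have hgen : ∀ (k : ℕ), θ (Polynomial.X ^ k * minpoly (ZMod p) (ξ : F)) = 0 := by
    intro k
    set f := minpoly (ZMod p) (ξ : F)
    conv_lhs => rw [f.as_sum_range, Finset.mul_sum, map_sum]
    have hterm : ∀ i, θ (Polynomial.X ^ k * Polynomial.monomial i (f.coeff i)) =
        Additive.ofMul (Xu (ξ ^ (k + i)) ^ (f.coeff i).val) := fun i => by
      rw [Polynomial.X_pow_eq_monomial, Polynomial.monomial_mul_monomial, one_mul, hθ, ofMul_pow,
        ← Nat.cast_smul_eq_nsmul (ZMod p), ZMod.natCast_zmod_val]
    simp only [hterm]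
    rw [← ofMul_prod, ← List.toFinset_range, List.prod_toFinset _ List.nodup_range, ← ofMul_one]
    refine congrArg Additive.ofMul (Subtype.ext ?_)
    have hk : ∀ j i, X (ξ ^ (j + i)) = MulAut.conj (g ^ j) (X (ξ ^ i)) := fun j i => by
      clear hterm
      induction j with
      | zero => simp
      | succ j ih =>
        rw [pow_succ' g, map_mul, MulAut.mul_apply, ← ih, MulAut.conj_apply, hg, ← pow_succ']
        congr 2
        omega
    rw [show ((1 : U) : P) = MulAut.conj (g ^ k) 1 from (map_one _).symm, ← hf, map_list_prod,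
      Subgroup.val_list_prod, List.map_map, List.map_map]
    refine congrArg List.prod (List.map_congr_left fun i _ => ?_)
    simp [Xu, hk, map_pow, Subgroup.coe_pow]
  have hmul : ∀ r : Polynomial (ZMod p), θ (r * minpoly (ZMod p) (ξ : F)) = 0 := fun r => by
    induction r using Polynomial.induction_on' with
    | add a b ha hb => rw [add_mul, map_add, ha, hb, add_zero]
    | monomial n c =>
      rw [← Polynomial.C_mul_X_pow_eq_monomial, mul_assoc, ← Polynomial.smul_eq_C_mul,
        ← ZMod.natCast_zmod_val c, Nat.cast_smul_eq_nsmul, map_nsmul, hgen, smul_zero]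
  have hsurj : ∀ a : F, ∃ r : Polynomial (ZMod p), Polynomial.aeval (ξ : F) r = a := fun a => by
    rcases eq_or_ne a 0 with rfl | ha
    · exact ⟨0, map_zero _⟩
    · obtain ⟨m, hm⟩ := (isOfFinOrder_of_finite ξ).mem_powers_iff_mem_zpowers.2 (hξ (Units.mk0 a ha))
      exact ⟨Polynomial.X ^ m, by simpa using congrArg Units.val hm⟩
  choose r hr using hsurj
  have hwd : ∀ (a : F) (q : Polynomial (ZMod p)), Polynomial.aeval (ξ : F) q = a → θ q = θ (r a) :=
    fun a q hq => by
      obtain ⟨w, hw⟩ := minpoly.dvd (ZMod p) (ξ : F) (p := q - r a) (by rw [map_sub, hq, hr, sub_self])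
      rw [← sub_eq_zero, ← map_sub, hw, mul_comm]
      exact hmul w
  refine ⟨fun a => (Additive.toMul (θ (r a)) : U), fun a b => ?_, fun s => ?_⟩
  · beta_reduce
    rw [← hwd (a + b) (r a + r b) (by rw [map_add, hr, hr]), map_add, toMul_add, Subgroup.coe_mul]
  · obtain ⟨m, rfl⟩ := (isOfFinOrder_of_finite ξ).mem_powers_iff_mem_zpowers.2 (hξ s)
    show ((Additive.toMul (θ (r _)) : U) : P) = _
    rw [← hwd _ (Polynomial.monomial m 1) (by simp), hθ, one_smul]
    rfl

end Cfsg.Agent.ShortPres
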