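import Cfsg.Agent.ShortPres.Main

/-!
The special linear group satisfies all the relations.
-/

set_option autoImplicit false

namespace Cfsg.Agent.ShortPres

open Equiv Matrix

variable {m : ℕ} {F : Type*} [Field F] [Finite F]

theorem ext_val {n : Type*} [Fintype n] [DecidableEq n] {K : Type*} [CommRing K]
    {A B : SpecialLinearGroup n K} (h : (A : Matrix n n K) = (B : Matrix n n K)) : A = B :=
  Subtype.ext h

theorem val_one' {n : Type*} [Fintype n] [DecidableEq n] {K : Type*} [CommRing K] :
    Subtype.val (1 : SpecialLinearGroup n K) = (1 : Matrix n n K) := rfl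

/-- The diagonal of a pair. -/
def pairFn (i j : Fin (m + 4)) (a : Fˣ) : Fin (m + 4) → F :=
  fun x => if x = i then (a : F) else if x = j then ((a⁻¹ : Fˣ) : F) else 1

theorem stab_permSL_comm {G : SpecialLinearGroup (Fin (m + 4)) F} (σ : alternatingGroup (Fin (m + 4)))
    (h : ∀ x y, (G : Matrix (Fin (m + 4)) (Fin (m + 4)) F) (σ.1 x) (σ.1 y) =
      (G : Matrix (Fin (m + 4)) (Fin (m + 4)) F) x y) : Commute (permSL σ) G :=
  ext_val (permMat_conj σ.1 h)

theorem apply_eq_iff_fix (σ : Perm (Fin (m + 4))) {a x : Fin (m + 4)} (h : σ a = a) : σ x = a ↔ x = a :=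
  ⟨fun e => σ.injective (e.trans h.symm), fun e => e ▸ h⟩

/-- The seed inside the special linear group. -/
noncomputable def seed0 (ξ : Fˣ) (hξ : ∀ a : Fˣ, a ∈ Subgroup.zpowers ξ) :
    Seed m F (SpecialLinearGroup (Fin (m + 4)) F) where
  ξ := ξ
  hξ := hξ
  π := permSL
  h := diagSL m ξ
  hN := by rw [← map_pow, pow_card_eq_one', map_one]
  stab_h σ h0 h1 := stab_permSL_comm σ fun x y => by
    show diagonal (diagFn m ξ) (σ.1 x) (σ.1 y) = diagonal (diagFn m ξ) x y
    simp only [diagonal_apply, σ.1.injective.eq_iff, diagFn, apply_eq_iff_fix σ.1 h0, apply_eq_iff_fix σ.1 h1]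

variable {ξ : Fˣ} {hξ : ∀ a : Fˣ, a ∈ Subgroup.zpowers ξ}

theorem φ_seed0 {i j : Fin (m + 4)} (hij : i ≠ j) (a : Fˣ) :
    (((seed0 (m := m) ξ hξ).φ i j a : SpecialLinearGroup (Fin (m + 4)) F) :
      Matrix (Fin (m + 4)) (Fin (m + 4)) F) = diagonal (pairFn i j a) := by
  set S := seed0 (m := m) ξ hξ
  have hφ : S.φ₀ = diagSL m := S.ext_gen (S.φ₀_gen.trans rfl)
  obtain ⟨σ, h0, h1⟩ := Seed.exists_std hij
  rw [S.φ_eq hij σ h0 h1 a, hφ, MulAut.conj_apply]
  have hc : permMat σ.1 * diagonal (diagFn m a) = diagonal (pairFn i j a) * permMat σ.1 := by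
    refine permMat_conj σ.1 fun x y => ?_
    simp only [diagonal_apply, σ.1.injective.eq_iff, pairFn, diagFn, ← h0, ← h1, σ.1.injective.eq_iff]
  have hd : (pairFn i j a : Fin (m + 4) → F) = fun x => diagFn m a (σ.1.symm x) := funext fun x => by
    simp only [pairFn, diagFn, Equiv.symm_apply_eq, h0, h1]
  have hdet : (diagonal (pairFn i j a) : Matrix (Fin (m + 4)) (Fin (m + 4)) F).det = 1 := by
    rw [det_diagonal, hd, Equiv.prod_comp σ.1.symm (diagFn m a), ← det_diagonal]
    exact (diagSL m a).2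
  have he : permSL σ * diagSL m a = ⟨_, hdet⟩ * permSL σ := ext_val hc
  have he' : permSL σ * diagSL m a * (permSL σ)⁻¹ = (⟨_, hdet⟩ : SpecialLinearGroup (Fin (m + 4)) F) := by
    exact (congrArg (· * (permSL σ)⁻¹) he).trans (mul_inv_cancel_right _ _)
  exact congrArg (fun g : SpecialLinearGroup (Fin (m + 4)) F =>
    (g : Matrix (Fin (m + 4)) (Fin (m + 4)) F)) he'

theorem φ_seed0_diag_comm {i j k l : Fin (m + 4)} (hij : i ≠ j) (hkl : k ≠ l) (a b : Fˣ) :
    Commute ((seed0 (m := m) ξ hξ).φ i j a) ((seed0 (m := m) ξ hξ).φ k l b) := by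
  refine ext_val ?_
  simp only [Cfsg.Agent.Linear.val_mul, φ_seed0 hij, φ_seed0 hkl, diagonal_mul_diagonal]
  congr 1
  funext x
  exact mul_comm _ _

theorem torusRels_seed0 : TorusRels (seed0 (m := m) ξ hξ) where
  inv := by
    refine eq_inv_of_mul_eq_one_left (ext_val ?_)
    rw [Cfsg.Agent.Linear.val_mul, φ_seed0 pne01.symm, φ_seed0 pne01, diagonal_mul_diagonal,
      val_one', ← diagonal_one]
    congr 1
    funext x
    simp only [pairFn]
    split_ifs <;> simp_all
  comm3 := φ_seed0_diag_comm pne01 pne12 _ _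
  tri := by
    refine ext_val ?_
    rw [Cfsg.Agent.Linear.val_mul, φ_seed0 pne01, φ_seed0 pne12, φ_seed0 pne02, diagonal_mul_diagonal]
    congr 1
    funext x
    have h01 := pne01 (m := m)
    have h02 := pne02 (m := m)
    have h12 := pne12 (m := m)
    simp only [pairFn]
    split_ifs <;> simp_all

/-- The root element in the special linear group. -/
noncomputable abbrev u0 (m : ℕ) (F : Type*) [Field F] : SpecialLinearGroup (Fin (m + 4)) F :=
  SpecialLinearGroup.transvection pne01 (1 : F)

theorem transvection_val {i j : Fin (m + 4)} (h : i ≠ j) (t : F) :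
    ((SpecialLinearGroup.transvection h t : SpecialLinearGroup (Fin (m + 4)) F) :
      Matrix (Fin (m + 4)) (Fin (m + 4)) F) = Matrix.transvection i j t := rfl

theorem rootSeed0 : RootSeed (seed0 (m := m) ξ hξ) (u0 m F) where
  torus := torusRels_seed0
  stab_u σ h0 h1 := stab_permSL_comm σ fun x y => by
    simp only [transvection_val, Matrix.transvection, Matrix.add_apply, Matrix.one_apply,
      Matrix.single_apply, σ.1.injective.eq_iff, eq_comm (a := (0 : Fin (m + 4))),
      eq_comm (a := (1 : Fin (m + 4))), apply_eq_iff_fix σ.1 h0, apply_eq_iff_fix σ.1 h1]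
  ker₁ := ext_val (by
    simp only [Cfsg.Agent.Linear.val_mul, φ_seed0 pne23, transvection_val]
    exact diagonal_conj_transvection _ _ _ (by
      simp [pairFn, pne02, pne03, pne12, pne13]))
  ker₂ := ext_val (by
    simp only [Cfsg.Agent.Linear.val_mul, φ_seed0 pne02, φ_seed0 pne12, transvection_val,
      diagonal_mul_diagonal]
    exact diagonal_conj_transvection _ _ _ (by
      simp [pairFn, pne01, pne02, pne12, pne01.symm]))

theorem eval0 : Eval (seed0 (m := m) ξ hξ) (u0 m F) (MonoidHom.id _) where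
  map_π _ := rfl
  map_h := rfl
  map_u := rfl

theorem X_seed0 {i j : Fin (m + 4)} (hij : i ≠ j) (s : Fˣ) :
    (rootSeed0 (ξ := ξ) (hξ := hξ)).X i j s = SpecialLinearGroup.transvection hij (s : F) :=
  eval_X (U := rootSeed0) eval0 hij s

theorem transvection_pow {i j : Fin (m + 4)} (hij : i ≠ j) (t : F) (k : ℕ) :
    (SpecialLinearGroup.transvection hij t) ^ k = SpecialLinearGroup.transvection hij (k * t) := by
  induction k with
  | zero => exact (ext_val (by rw [transvection_val, Nat.cast_zero, zero_mul, Matrix.transvection_zero]; rfl))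
  | succ k ih =>
    rw [pow_succ, ih]
    refine ext_val ?_
    rw [Cfsg.Agent.Linear.val_mul, transvection_val, transvection_val, transvection_val,
      Matrix.transvection_mul_transvection_same i j hij, Nat.cast_succ, add_mul, one_mul]

theorem rootRels_seed0 (p : ℕ) [Fact p.Prime] [Algebra (ZMod p) F] :
    RootRels p (rootSeed0 (m := m) (ξ := ξ) (hξ := hξ)) := by
  have Sy := Spec.StPres.sys_transvection (K := F) (m + 4)
  have hX : ∀ {i j : Fin (m + 4)} (hij : i ≠ j) (s : Fˣ),
      (rootSeed0 (ξ := ξ) (hξ := hξ)).X i j s =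
        if h : i = j then 1 else SpecialLinearGroup.transvection h (s : F) := fun hij s => by
    rw [X_seed0 hij, dif_neg hij]
  refine ⟨?_, ?_, fun i j k l h₁ h₂ h₃ h₄ h₅ h₆ => ?_, fun i j k h₁ h₂ h₃ => ?_, ?_, ?_⟩
  · rw [hX pne01, hX pne02]
    have := Sy.comm0 _ _ _ _ pne01 pne02 pne02 pne01.symm ((1 : Fˣ) : F) ((1 : Fˣ) : F)
    simpa [Commute, SemiconjBy, pne01, pne02] using this
  · rw [hX pne02, hX pne12]
    exact Sy.comm0 _ _ _ _ pne02 pne12 pne02 pne12.symm _ _
  · rw [hX h₁, hX h₆]
    have := Sy.comm0 _ _ _ _ h₁ h₆ h₃ h₄ ((1 : Fˣ) : F) ((1 : Fˣ) : F)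
    simpa [Commute, SemiconjBy, h₁, h₆] using this
  · rw [hX h₁, hX h₂, hX h₃]
    have := Sy.comm1 i j k h₁ h₃ h₂ ((1 : Fˣ) : F) ((1 : Fˣ) : F)
    simpa using this
  · rw [X_seed0 pne01, transvection_pow]
    haveI : CharP F p := charP_of_injective_algebraMap (algebraMap (ZMod p) F).injective p
    refine ext_val ?_
    rw [transvection_val, CharP.cast_eq_zero F p, zero_mul, Matrix.transvection_zero]; rfl
  · set f := minpoly (ZMod p) (ξ : F)
    have hsum : ∀ l : List ℕ, (l.map fun i =>
        (rootSeed0 (m := m) (ξ := ξ) (hξ := hξ)).X 0 1 (ξ ^ i) ^ (f.coeff i).val).prod =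
        SpecialLinearGroup.transvection pne01
          (l.map fun i => algebraMap (ZMod p) F (f.coeff i) * (ξ : F) ^ i).sum := by
      intro l
      induction l with
      | nil => exact ext_val (by simp [transvection_val])
      | cons a l ih =>
        rw [List.map_cons, List.prod_cons, ih, X_seed0 pne01, transvection_pow, List.map_cons,
          List.sum_cons]
        refine ext_val ?_
        rw [Cfsg.Agent.Linear.val_mul, transvection_val, transvection_val, transvection_val,
          Matrix.transvection_mul_transvection_same (0 : Fin (m + 4)) 1 pne01, Units.val_pow_eq_pow_val,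
          ← map_natCast (algebraMap (ZMod p) F), ZMod.natCast_zmod_val]
    refine (hsum _).trans (ext_val ?_)
    rw [transvection_val, ← List.sum_toFinset _ List.nodup_range, List.toFinset_range]
    have h0 : ∑ i ∈ Finset.range (f.natDegree + 1), algebraMap (ZMod p) F (f.coeff i) * (ξ : F) ^ i = 0 := by
      have := minpoly.aeval (ZMod p) (ξ : F)
      rw [Polynomial.aeval_eq_sum_range] at this
      simpa [Algebra.smul_def] using this
    show Matrix.transvection (0 : Fin (m + 4)) 1
      (∑ i ∈ Finset.range (f.natDegree + 1), algebraMap (ZMod p) F (f.coeff i) * (ξ : F) ^ i) = _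
    rw [h0, Matrix.transvection_zero]; rfl

end Cfsg.Agent.ShortPres
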