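import Cfsg.Agent.ShortPres.Tuples

/-!
The torus built from one element centralised by a stabiliser in the alternating group.
-/

set_option autoImplicit false

namespace Cfsg.Agent.ShortPres

open Equiv

variable {m : ℕ} {F : Type*} [Field F] [Finite F] {P : Type*} [Group P]

/-- A generator of the multiplicative group, and a copy of the alternating group with an element
`h` centralised by the stabiliser of `0` and `1`. -/
structure Seed (m : ℕ) (F : Type*) [Field F] [Finite F] (P : Type*) [Group P] where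
  ξ : Fˣ
  hξ : ∀ u : Fˣ, u ∈ Subgroup.zpowers ξ
  π : alternatingGroup (Fin (m + 4)) →* P
  h : P
  hN : h ^ Nat.card Fˣ = 1
  stab_h : ∀ σ : alternatingGroup (Fin (m + 4)), σ.1 0 = 0 → σ.1 1 = 1 → Commute (π σ) h

theorem pne01 : (0 : Fin (m + 4)) ≠ 1 := by simp [Fin.ext_iff]
theorem pne02 : (0 : Fin (m + 4)) ≠ 2 := by simp [Fin.ext_iff, Nat.mod_eq_of_lt (show 2 < m + 4 by omega)]
theorem pne03 : (0 : Fin (m + 4)) ≠ 3 := by simp [Fin.ext_iff, Nat.mod_eq_of_lt (show 3 < m + 4 by omega)]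
theorem pne12 : (1 : Fin (m + 4)) ≠ 2 := by simp [Fin.ext_iff, Nat.mod_eq_of_lt (show 2 < m + 4 by omega)]
theorem pne13 : (1 : Fin (m + 4)) ≠ 3 := by simp [Fin.ext_iff, Nat.mod_eq_of_lt (show 3 < m + 4 by omega)]
theorem pne23 : (2 : Fin (m + 4)) ≠ 3 := by
  simp [Fin.ext_iff, Nat.mod_eq_of_lt (show 2 < m + 4 by omega), Nat.mod_eq_of_lt (show 3 < m + 4 by omega)]

namespace Seed

variable (S : Seed m F P)

/-- The cyclic torus on the first two points. -/
noncomputable def φ₀ : Fˣ →* P :=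
  monoidHomOfForallMemZpowers S.hξ (g' := S.h) <| by
    rw [orderOf_eq_card_of_forall_mem_zpowers S.hξ]
    exact orderOf_dvd_of_pow_eq_one S.hN

theorem φ₀_gen : S.φ₀ S.ξ = S.h := monoidHomOfForallMemZpowers_apply_gen _ _

theorem stab_φ₀ (σ : alternatingGroup (Fin (m + 4))) (h0 : σ.1 0 = 0) (h1 : σ.1 1 = 1) (a : Fˣ) :
    Commute (S.π σ) (S.φ₀ a) := by
  obtain ⟨k, rfl⟩ := Subgroup.mem_zpowers_iff.1 (S.hξ a)
  rw [map_zpow, φ₀_gen]
  exact (S.stab_h σ h0 h1).zpow_right k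

theorem exists_std {i j : Fin (m + 4)} (hij : i ≠ j) :
    ∃ σ : alternatingGroup (Fin (m + 4)), σ.1 0 = i ∧ σ.1 1 = j := by
  obtain ⟨σ, hσ⟩ := exists_even ![0, 1] ![i, j] (injective_vec2 pne01) (injective_vec2 hij) (by omega)
  exact ⟨σ, hσ 0, hσ 1⟩

/-- A standard even permutation for a pair. -/
noncomputable def std {i j : Fin (m + 4)} (hij : i ≠ j) : alternatingGroup (Fin (m + 4)) :=
  (exists_std hij).choose

theorem std_zero {i j : Fin (m + 4)} (hij : i ≠ j) : (std hij).1 0 = i := (exists_std hij).choose_spec.1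
theorem std_one {i j : Fin (m + 4)} (hij : i ≠ j) : (std hij).1 1 = j := (exists_std hij).choose_spec.2

/-- The torus of a pair of points. -/
noncomputable def φ (i j : Fin (m + 4)) : Fˣ →* P :=
  if hij : i = j then 1 else (MulAut.conj (S.π (std hij))).toMonoidHom.comp S.φ₀

theorem φ_diag (i : Fin (m + 4)) (a : Fˣ) : S.φ i i a = 1 := by simp [φ]

theorem φ_eq {i j : Fin (m + 4)} (hij : i ≠ j) (σ : alternatingGroup (Fin (m + 4))) (h0 : σ.1 0 = i)
    (h1 : σ.1 1 = j) (a : Fˣ) : S.φ i j a = MulAut.conj (S.π σ) (S.φ₀ a) := by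
  have hc : MulAut.conj (S.π ((std hij)⁻¹ * σ)) (S.φ₀ a) = S.φ₀ a := by
    rw [MulAut.conj_apply, (S.stab_φ₀ _ ?_ ?_ a).eq, mul_inv_cancel_right] <;>
      rw [Subgroup.coe_mul, Perm.mul_apply, Subgroup.coe_inv, Perm.inv_eq_iff_eq]
    · rw [h0, std_zero]
    · rw [h1, std_one]
  rw [φ, dif_neg hij, MonoidHom.comp_apply]
  conv_rhs => rw [show σ = std hij * ((std hij)⁻¹ * σ) by group, map_mul, map_mul, MulAut.mul_apply, hc]
  rfl

theorem conj_φ (σ : alternatingGroup (Fin (m + 4))) (i j : Fin (m + 4)) (a : Fˣ) :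
    MulAut.conj (S.π σ) (S.φ i j a) = S.φ (σ.1 i) (σ.1 j) a := by
  rcases eq_or_ne i j with rfl | hij
  · rw [φ_diag, φ_diag, map_one]
  rw [S.φ_eq (σ.1.injective.ne hij) (σ * std hij) (by simp [std_zero]) (by simp [std_one]),
    S.φ_eq hij _ (std_zero hij) (std_one hij), map_mul, map_mul, MulAut.mul_apply]

theorem φ_one_zero : S.φ 0 1 S.ξ = S.h := by
  rw [S.φ_eq pne01 1 rfl rfl, map_one, map_one, φ₀_gen]; rfl

theorem ext_gen {M : Type*} [Monoid M] {f g : Fˣ →* M} (h : f S.ξ = g S.ξ) : f = g := by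
  refine MonoidHom.ext fun a => ?_
  obtain ⟨k, rfl⟩ := (isOfFinOrder_of_finite S.ξ).mem_powers_iff_mem_zpowers.2 (S.hξ a)
  simp [map_pow, h]

theorem commute_of_gen {f g : Fˣ →* P} (h : Commute (f S.ξ) (g S.ξ)) (a b : Fˣ) : Commute (f a) (g b) := by
  obtain ⟨k, rfl⟩ := Subgroup.mem_zpowers_iff.1 (S.hξ a)
  obtain ⟨l, rfl⟩ := Subgroup.mem_zpowers_iff.1 (S.hξ b)
  rw [map_zpow, map_zpow]
  exact h.zpow_zpow k l

end Seed

/-- The three relations making the pairs of points into a torus. -/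
structure TorusRels (S : Seed m F P) : Prop where
  inv : S.φ 1 0 S.ξ = (S.φ 0 1 S.ξ)⁻¹
  comm3 : Commute (S.φ 0 1 S.ξ) (S.φ 1 2 S.ξ)
  tri : S.φ 0 1 S.ξ * S.φ 1 2 S.ξ = S.φ 0 2 S.ξ

namespace TorusRels

variable {S : Seed m F P} (R : TorusRels S)
include R

theorem inv_all (i j : Fin (m + 4)) (a : Fˣ) : S.φ j i a = (S.φ i j a)⁻¹ := by
  rcases eq_or_ne i j with rfl | hij
  · simp [Seed.φ_diag]
  have h0 : S.φ 1 0 = (S.φ 0 1).comp (invMonoidHom : Fˣ →* Fˣ) := S.ext_gen (by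
    simp [R.inv])
  have h1 := congrArg (MulAut.conj (S.π (Seed.std hij))) (DFunLike.congr_fun h0 a)
  rw [MonoidHom.comp_apply, invMonoidHom_apply, map_inv, map_inv, S.conj_φ, S.conj_φ,
    Seed.std_zero, Seed.std_one] at h1
  exact h1

theorem comm3_all {i j k : Fin (m + 4)} (hij : i ≠ j) (hik : i ≠ k) (hjk : j ≠ k) (a b : Fˣ) :
    Commute (S.φ i j a) (S.φ j k b) := by
  refine S.commute_of_gen ?_ a b
  obtain ⟨σ, h | h⟩ := exists_even_or_odd ![0, 1, 2] ![i, j, k] (injective_vec3 pne01 pne02 pne12)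
    (injective_vec3 hij hik hjk) (swap 0 2) (Perm.sign_swap pne02)
  · have hc : Commute (MulAut.conj (S.π σ) (S.φ 0 1 S.ξ)) (MulAut.conj (S.π σ) (S.φ 1 2 S.ξ)) :=
      R.comm3.map _
    rw [S.conj_φ, S.conj_φ] at hc
    have e0 := h 0; have e1 := h 1; have e2 := h 2
    simp only [Matrix.cons_val_zero, Matrix.cons_val_one, Matrix.cons_val_two, Matrix.head_cons,
      Matrix.tail_cons] at e0 e1 e2
    rwa [e0, e1, e2] at hc
  · have hc : Commute (MulAut.conj (S.π σ) (S.φ 0 1 S.ξ)) (MulAut.conj (S.π σ) (S.φ 1 2 S.ξ)) :=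
      R.comm3.map _
    rw [S.conj_φ, S.conj_φ] at hc
    have e0 := h 0; have e1 := h 1; have e2 := h 2
    simp only [Matrix.cons_val_zero, Matrix.cons_val_one, Matrix.cons_val_two, Matrix.head_cons,
      Matrix.tail_cons, swap_apply_left, swap_apply_right,
      swap_apply_of_ne_of_ne pne01.symm pne12] at e0 e1 e2
    rw [e0, e1, e2] at hc
    rw [R.inv_all j i, R.inv_all k j]
    exact hc.symm.inv_inv

theorem tri_gen {i j k : Fin (m + 4)} (hij : i ≠ j) (hik : i ≠ k) (hjk : j ≠ k) :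
    S.φ i j S.ξ * S.φ j k S.ξ = S.φ i k S.ξ := by
  obtain ⟨σ, h | h⟩ := exists_even_or_odd ![0, 1, 2] ![i, j, k] (injective_vec3 pne01 pne02 pne12)
    (injective_vec3 hij hik hjk) (swap 0 2) (Perm.sign_swap pne02)
  all_goals
    have hc := congrArg (MulAut.conj (S.π σ)) R.tri
    rw [map_mul, S.conj_φ, S.conj_φ, S.conj_φ] at hc
    have e0 := h 0; have e1 := h 1; have e2 := h 2
    simp only [Matrix.cons_val_zero, Matrix.cons_val_one, Matrix.cons_val_two, Matrix.head_cons,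
      Matrix.tail_cons, swap_apply_left, swap_apply_right,
      swap_apply_of_ne_of_ne pne01.symm pne12] at e0 e1 e2
    rw [e0, e1, e2] at hc
  · exact hc
  · rw [← inv_inj, mul_inv_rev, ← R.inv_all, ← R.inv_all, ← R.inv_all]
    exact hc

theorem comm4_all {i j k l : Fin (m + 4)} (h₁ : i ≠ j) (h₂ : i ≠ k) (h₃ : i ≠ l) (h₄ : j ≠ k)
    (h₅ : j ≠ l) (h₆ : k ≠ l) (a b : Fˣ) : Commute (S.φ i j a) (S.φ k l b) := by
  refine S.commute_of_gen ?_ a b
  rw [← R.tri_gen h₄.symm h₆ h₅, R.inv_all j k]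
  exact (R.comm3_all h₁ h₂ h₄ _ _).inv_right.mul_right (R.comm3_all h₁ h₃ h₅ _ _)

theorem comm_all (i j k l : Fin (m + 4)) (a b : Fˣ) : Commute (S.φ i j a) (S.φ k l b) := by
  rcases eq_or_ne i j with rfl | hij
  · rw [S.φ_diag]; exact Commute.one_left _
  rcases eq_or_ne k l with rfl | hkl
  · rw [S.φ_diag]; exact Commute.one_right _
  by_cases hjk : j = k
  · subst hjk
    by_cases hil : i = l
    · subst hil
      rw [R.inv_all i j b]
      exact ((Commute.all a b).map (S.φ i j)).inv_right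
    · exact R.comm3_all hij hil hkl a b
  by_cases hil : i = l
  · subst hil
    exact (R.comm3_all hkl (Ne.symm hjk) hij b a).symm
  by_cases hik : i = k
  · subst hik
    by_cases hjl : j = l
    · subst hjl; exact (Commute.all a b).map (S.φ i j)
    · rw [R.inv_all j i a]
      exact (R.comm3_all hij.symm hjl hkl a b).inv_left
  by_cases hjl : j = l
  · subst hjl
    rw [R.inv_all j k b]
    exact (R.comm3_all hij hik hjk a b).inv_right
  exact R.comm4_all hij hik hil hjk hjl hkl a b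

theorem tri_all (i j k : Fin (m + 4)) (a : Fˣ) : S.φ i j a * S.φ j k a = S.φ i k a := by
  rcases eq_or_ne i j with rfl | hij
  · rw [S.φ_diag, one_mul]
  rcases eq_or_ne j k with rfl | hjk
  · rw [S.φ_diag, mul_one]
  rcases eq_or_ne i k with rfl | hik
  · rw [S.φ_diag, R.inv_all i j, mul_inv_cancel]
  obtain ⟨l, rfl⟩ := (isOfFinOrder_of_finite S.ξ).mem_powers_iff_mem_zpowers.2 (S.hξ a)
  simp only [map_pow]
  rw [← (R.comm_all i j j k _ _).mul_pow]
  congr 1
  exact R.tri_gen hij hik hjk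

/-- The torus of all diagonal matrices of determinant one. -/
noncomputable def τ : (Fin (m + 4) → Fˣ) →* P :=
  MonoidHom.noncommPiCoprod (fun i => S.φ i 0) fun _ _ _ a b => R.comm_all _ _ _ _ a b

theorem τ_single (i : Fin (m + 4)) (a : Fˣ) : R.τ (Pi.mulSingle i a) = S.φ i 0 a :=
  MonoidHom.noncommPiCoprod_mulSingle ..

theorem τ_pair (i j : Fin (m + 4)) (a : Fˣ) :
    R.τ (Pi.mulSingle i a / Pi.mulSingle j a) = S.φ i j a := by
  rw [map_div, R.τ_single, R.τ_single, div_eq_mul_inv, ← R.inv_all j 0, R.tri_all]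

/-- A subgroup containing all pair elements contains every element of determinant one. -/
theorem mem_of_prod_eq_one {T : Subgroup (Fin (m + 4) → Fˣ)}
    (hT : ∀ i j a, Pi.mulSingle i a / Pi.mulSingle j a ∈ T) {f : Fin (m + 4) → Fˣ}
    (hf : ∏ i, f i = 1) : f ∈ T := by
  classical
  have h : (∏ i, (Pi.mulSingle i (f i) / Pi.mulSingle 0 (f i) : Fin (m + 4) → Fˣ)) ∈ T :=
    T.prod_mem fun i _ => hT i 0 (f i)
  rwa [Finset.prod_div_distrib, Finset.univ_prod_mulSingle,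
    show (∏ i, (Pi.mulSingle 0 (f i) : Fin (m + 4) → Fˣ)) =
      MonoidHom.mulSingle (fun _ : Fin (m + 4) => Fˣ) 0 (∏ i, f i) from (map_prod (MonoidHom.mulSingle (fun _ : Fin (m + 4) => Fˣ) 0) f Finset.univ).symm,
    hf, map_one, div_one] at h

theorem conj_τ (σ : alternatingGroup (Fin (m + 4))) {f : Fin (m + 4) → Fˣ} (hf : ∏ i, f i = 1) :
    MulAut.conj (S.π σ) (R.τ f) = R.τ (fun x => f (σ.1⁻¹ x)) := by
  classical
  let ρ : (Fin (m + 4) → Fˣ) →* (Fin (m + 4) → Fˣ) :=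
    { toFun := fun g x => g (σ.1⁻¹ x), map_one' := rfl, map_mul' := fun _ _ => rfl }
  refine R.mem_of_prod_eq_one (T := MonoidHom.eqLocus ((MulAut.conj (S.π σ)).toMonoidHom.comp R.τ)
    (R.τ.comp ρ)) (fun i j a => ?_) hf
  show ((MulAut.conj (S.π σ)).toMonoidHom.comp R.τ) _ = (R.τ.comp ρ) _
  rw [MonoidHom.comp_apply, MonoidHom.comp_apply, MulEquiv.coe_toMonoidHom]
  have e : ∀ i, ρ (Pi.mulSingle i a) = Pi.mulSingle (σ.1 i) a := fun i => funext fun x => by
    simp only [ρ, MonoidHom.coe_mk, OneHom.coe_mk, Pi.mulSingle_apply]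
    exact if_congr Perm.inv_eq_iff_eq rfl rfl
  rw [R.τ_pair, map_div, e, e, R.τ_pair, S.conj_φ]

end TorusRels

/-- From five points on, inversion follows from the triangle relation. -/
theorem torusRels_of_tri {S : Seed m F P} (hm : 1 ≤ m)
    (hc : Commute (S.φ 0 1 S.ξ) (S.φ 1 2 S.ξ))
    (ht : S.φ 0 1 S.ξ * S.φ 1 2 S.ξ = S.φ 0 2 S.ξ) : TorusRels S := by
  refine ⟨?_, hc, ht⟩
  obtain ⟨σ, hσ⟩ := exists_even ![0, 1, 2] ![0, 2, 1] (injective_vec3 pne01 pne02 pne12)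
    (injective_vec3 (pne02 (m := m)) pne01 pne12.symm) (by omega)
  have h := congrArg (MulAut.conj (S.π σ)) ht
  rw [map_mul, S.conj_φ, S.conj_φ, S.conj_φ, show σ.1 0 = 0 from hσ 0, show σ.1 1 = 2 from hσ 1,
    show σ.1 2 = 1 from hσ 2, ← ht, mul_assoc, mul_eq_left] at h
  obtain ⟨ρ, hρ⟩ := exists_even ![1, 2] ![0, 1] (injective_vec2 (pne12 (m := m))) (injective_vec2 pne01)
    (by omega)
  have h2 := congrArg (MulAut.conj (S.π ρ)) h
  rw [map_mul, map_one, S.conj_φ, S.conj_φ, show ρ.1 1 = 0 from hρ 0,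
    show ρ.1 2 = 1 from hρ 1] at h2
  exact eq_inv_of_mul_eq_one_right h2

end Cfsg.Agent.ShortPres
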