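import Cfsg.Agent.ShortPres.Target
import Cfsg.Agent.GKKL.Tiny

/-!
The short list of relators.
-/

set_option autoImplicit false

namespace Cfsg.Agent.ShortPres

open Equiv

/-- Even permutations as words in given generators. -/
noncomputable def permWord {n l : ℕ} (v : Fin l → alternatingGroup (Fin n)) (σ : alternatingGroup (Fin n)) :
    FreeGroup (Fin (l + 1)) :=
  FreeGroup.map Fin.castSucc (Function.invFun (FreeGroup.lift v) σ)

variable {m l : ℕ} {F : Type*} [Field F] [Finite F]

/-- The swap exchanging the first and second pairs of points. -/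
def pairSwap (m : ℕ) : alternatingGroup (Fin (m + 4)) :=
  ⟨swap 0 2 * swap 1 3, by
    rw [Perm.mem_alternatingGroup, map_mul, Perm.sign_swap pne02, Perm.sign_swap pne13]; rfl⟩

theorem pairSwap_two : (pairSwap m).1 2 = 0 := by
  show swap (0 : Fin (m + 4)) 2 (swap 1 3 2) = 0
  rw [swap_apply_of_ne_of_ne pne12.symm pne23, swap_apply_right]

theorem pairSwap_three : (pairSwap m).1 3 = 1 := by
  show swap (0 : Fin (m + 4)) 2 (swap 1 3 3) = 1
  rw [swap_apply_right, swap_apply_of_ne_of_ne pne01.symm pne12]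

/-- Words in the generators: `z = u h₂₃` has coprime exponents `α`, `β` recovering the factors. -/
structure WordData (m l : ℕ) where
  v : Fin l → alternatingGroup (Fin (m + 4))
  α : ℕ
  β : ℕ

namespace WordData

variable (D : WordData m l)

/-- The new generator. -/
def zw : FreeGroup (Fin (l + 1)) := FreeGroup.of (Fin.last l)

/-- A permutation. -/
noncomputable def πw (σ : alternatingGroup (Fin (m + 4))) : FreeGroup (Fin (l + 1)) := permWord D.v σ

/-- The torus element. -/
noncomputable def hw : FreeGroup (Fin (l + 1)) := MulAut.conj (D.πw (pairSwap m)) (zw ^ D.β)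

/-- The root element. -/
def uw : FreeGroup (Fin (l + 1)) := zw ^ D.α

/-- A torus element. -/
noncomputable def φw (i j : Fin (m + 4)) (k : ℕ) : FreeGroup (Fin (l + 1)) :=
  if h : i = j then 1 else MulAut.conj (D.πw (Seed.std h)) (D.hw ^ k)

/-- A root element. -/
noncomputable def Xw (i j : Fin (m + 4)) (k : ℕ) : FreeGroup (Fin (l + 1)) :=
  if h : i = j then 1 else MulAut.conj (D.πw (Seed.std h)) (MulAut.conj (D.φw 0 2 k) D.uw)

variable {P : Type*} [Group P] {S : Seed m F P} {u : P} (g : FreeGroup (Fin (l + 1)) →* P)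

/-- A valuation of the words in a seeded group. -/
structure Val (S : Seed m F P) (u : P) (g : FreeGroup (Fin (l + 1)) →* P) : Prop where
  map_π : ∀ σ, g (D.πw σ) = S.π σ
  map_h : g D.hw = S.h
  map_u : g D.uw = u

variable {g} (V : D.Val S u g)
include V

theorem val_φ (i j : Fin (m + 4)) (k : ℕ) : g (D.φw i j k) = S.φ i j (S.ξ ^ k) := by
  rcases eq_or_ne i j with rfl | h
  · simp [φw, S.φ_diag]
  rw [φw, dif_neg h, map_conj, map_pow, V.map_π, V.map_h,
    S.φ_eq h _ (Seed.std_zero h) (Seed.std_one h), map_pow S.φ₀, S.φ₀_gen]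

theorem val_φ_one (i j : Fin (m + 4)) : g (D.φw i j 1) = S.φ i j S.ξ := by
  rw [D.val_φ V, pow_one]

theorem val_X (U : RootSeed S u) (i j : Fin (m + 4)) (k : ℕ) :
    g (D.Xw i j k) = U.X i j (S.ξ ^ k) := by
  rcases eq_or_ne i j with rfl | h
  · simp [Xw, RootSeed.X]
  rw [Xw, dif_neg h, map_conj, map_conj, V.map_π, V.map_u, D.val_φ V, RootSeed.X, dif_neg h,
    RootSeed.std02, U.torus.τ_pair]

theorem val_X_one (U : RootSeed S u) (i j : Fin (m + 4)) : g (D.Xw i j 0) = U.X i j 1 := by
  rw [D.val_X V U, pow_zero]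

end WordData

/-- The commutator relator. -/
def commW {α : Type*} (a b : FreeGroup α) : FreeGroup α := a * b * (b * a)⁻¹

theorem commW_iff {α : Type*} {P : Type*} [Group P] (g : FreeGroup α →* P) (a b : FreeGroup α) :
    g (commW a b) = 1 ↔ Commute (g a) (g b) := by
  simp only [commW, map_mul, map_inv, mul_inv_eq_one]
  rfl

/-- The relator of an equation. -/
def eqW {α : Type*} (a b : FreeGroup α) : FreeGroup α := a * b⁻¹

theorem eqW_iff {α : Type*} {P : Type*} [Group P] (g : FreeGroup α →* P) (a b : FreeGroup α) :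
    g (eqW a b) = 1 ↔ g a = g b := by
  simp only [eqW, map_mul, map_inv, mul_inv_eq_one]

/-- The choices entering the list of relators. -/
structure Choices (m l : ℕ) (F : Type*) [Field F] where
  p : ℕ
  cf : ℕ → ℕ
  deg : ℕ
  sg : List (alternatingGroup (Fin (m + 4)))
  dj : List (Fin 4 → Fin (m + 4))
  st : List (Fin 3 → Fin (m + 4))
  withInv : Bool
  N : ℕ
  c : alternatingGroup (Fin (m + 4))
  cword : FreeGroup ({a : Fin (m + 4) × Fin (m + 4) // a.1 ≠ a.2} × ℕ)

namespace Choices

variable (C : Choices m l F) (D : WordData m l)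

/-- The relators besides those of the alternating group. -/
noncomputable def extra : List (FreeGroup (Fin (l + 1))) :=
  [WordData.zw ^ (C.p * C.N),
    commW (D.φw 0 1 1) (D.φw 1 2 1),
    eqW (D.φw 0 1 1 * D.φw 1 2 1) (D.φw 0 2 1),
    commW (D.φw 0 2 1 * D.φw 1 2 1) D.uw,
    commW (D.Xw 0 1 0) (D.Xw 0 2 0),
    commW (D.Xw 0 2 0) (D.Xw 1 2 0),
    ((List.range (C.deg + 1)).map fun i => D.Xw 0 1 i ^ C.cf i).prod,
    eqW (D.πw C.c) (FreeGroup.lift (fun a => D.Xw a.1.1.1 a.1.1.2 a.2) C.cword)] ++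
  C.sg.map (fun s => commW (D.πw s) D.uw) ++
  C.sg.map (fun s => commW (D.πw s) D.hw) ++
  C.dj.map (fun f => commW (D.Xw (f 0) (f 1) 0) (D.Xw (f 2) (f 3) 0)) ++
  C.st.map (fun f => eqW (D.Xw (f 0) (f 1) 0 * D.Xw (f 1) (f 2) 0)
    (D.Xw (f 0) (f 2) 0 * D.Xw (f 1) (f 2) 0 * D.Xw (f 0) (f 1) 0)) ++
  (if C.withInv then [eqW (D.φw 1 0 1) (D.φw 0 1 1)⁻¹] else [])

theorem length_extra : (C.extra D).length =
    8 + 2 * C.sg.length + C.dj.length + C.st.length + (if C.withInv then 1 else 0) := by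
  cases h : C.withInv <;> simp [extra, h] <;> ring

end Choices

end Cfsg.Agent.ShortPres
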